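import Cfsg.Agent.Lib.RC.Pure

/-!
# Classes of odd transpositions
-/

set_option autoImplicit false

namespace CfsgLib.RC

open Subgroup Cfsg CfsgLib.FT CfsgLib.FT.BGN CfsgLib.GW
open CfsgLib.FT.U4 (mem_cent1 mem_cent1' mem_cent mem_cent1_comm self_mem_cent1 cent1_conj
  orderOf_conj cent_le_cent1)

variable {X : Type*} [Group X]

/-- The class of `s` consists of odd transpositions. -/
structure OT (s : X) : Prop where
  ord : orderOf s = 2
  f1 : ∀ a b, IsConj s a → IsConj s b → a * b = b * a ∨ Odd (orderOf (a * b))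
  nc : ∀ c c' a, IsConj s c → IsConj s c' → IsConj s a → c * c' = c' * c →
    c * c' * a = a * (c * c') → a * c ≠ c * a → c = c'

/-- Two non-commuting conjugates and a commuting set of conjugates centralizing both. -/
structure Cfg (s a b : X) (I : Set X) : Prop where
  ha : IsConj s a
  hb : IsConj s b
  ne : a * b ≠ b * a
  sub : ∀ i ∈ I, IsConj s i
  comm : ∀ i ∈ I, ∀ j ∈ I, i * j = j * i
  ca : ∀ i ∈ I, i * a = a * i
  cb : ∀ i ∈ I, i * b = b * i

/-- A configuration with `I` as large as possible. -/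
structure MC (s a b : X) (I : Set X) : Prop extends Cfg s a b I where
  max : ∀ a' b' I', Cfg s a' b' I' → I'.ncard ≤ I.ncard

/-- Conjugates outside `I` centralizing `I`. -/
def KI (s : X) (I : Set X) : Set X := {c | IsConj s c ∧ c ∉ I ∧ ∀ i ∈ I, i * c = c * i}

/-- The block of `a`. -/
def Jc (s : X) (I : Set X) (a : X) : Set X := {c | c ∈ KI s I ∧ c * a = a * c}

theorem comm_conj {g u v : X} (h : u * v = v * u) :
    g * u * g⁻¹ * (g * v * g⁻¹) = g * v * g⁻¹ * (g * u * g⁻¹) := by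
  rw [show g * u * g⁻¹ * (g * v * g⁻¹) = g * (u * v) * g⁻¹ by group, h]; group

theorem comm_of_conj {g u v : X}
    (h : g * u * g⁻¹ * (g * v * g⁻¹) = g * v * g⁻¹ * (g * u * g⁻¹)) : u * v = v * u := by
  simpa [mul_assoc] using comm_conj (g := g⁻¹) h

theorem KI_conj {s g c : X} {I : Set X} (hg : g ∈ centralizer I) (hc : c ∈ KI s I) :
    g * c * g⁻¹ ∈ KI s I := by
  have e : ∀ i ∈ I, g * i * g⁻¹ = i := fun i hi => by rw [← hg i hi]; group
  refine ⟨isConj_conj hc.1 g, fun h => hc.2.1 ?_, fun i hi => ?_⟩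
  · have := e _ h
    rw [mul_inv_eq_iff_eq_mul, mul_assoc g c, mul_assoc g, mul_right_inj, ← mul_assoc,
      inv_mul_cancel_right] at this
    rwa [this] at h
  · have := comm_conj (g := g) (hc.2.2 i hi)
    rwa [e i hi] at this

variable [Finite X]

theorem exists_mc {s a b : X} (h : Cfg s a b ∅) : ∃ a b I, MC s a b I := by
  have : Nonempty {p : X × X × Set X // Cfg s p.1 p.2.1 p.2.2} := ⟨⟨(a, b, ∅), h⟩⟩
  obtain ⟨p, hp⟩ := Finite.exists_max
    fun p : {p : X × X × Set X // Cfg s p.1 p.2.1 p.2.2} => p.1.2.2.ncard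
  exact ⟨_, _, _, p.2, fun a' b' I' h' => hp ⟨(a', b', I'), h'⟩⟩

theorem OT.mid {s a b : X} (ot : OT s) (ha : IsConj s a) (hb : IsConj s b) (ne : a * b ≠ b * a) :
    ∃ c, IsConj s c ∧ c * a * c⁻¹ = b ∧ ∀ f, f * a = a * f → f * b = b * f → f * c = c * f := by
  have aa := sq_of_isConj ot.ord ha
  have bb := sq_of_isConj ot.ord hb
  have ho := (ot.f1 a b ha hb).resolve_left ne
  obtain ⟨y, hy, ey⟩ := exists_sqrt ho
  obtain ⟨u, hu, eu⟩ := exists_sqrt (x := y) (ho.of_dvd_nat (orderOf_dvd_of_mem_zpowers hy))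
  have ai : a⁻¹ = a := inv_eq_of_mul_eq_one_left aa
  have e0 : a * (a * b) * a⁻¹ = (a * b)⁻¹ := by
    rw [← mul_assoc, aa, one_mul, mul_inv_rev, inv_eq_of_mul_eq_one_left bb]
  have e1 := inv_of_mem_zpowers e0 hy
  have e2 := inv_of_mem_zpowers e1 hu
  refine ⟨a * y, ?_, ?_, fun f h1 h2 => ?_⟩
  · have := isConj_conj ha u⁻¹
    rwa [← e2, show a * u * a⁻¹ * a * (a * u * a⁻¹)⁻¹ = a * u * (a * u * a⁻¹)⁻¹ by group, e2,
      inv_inv, mul_assoc, eu] at this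
  · rw [show a * y * a * (a * y)⁻¹ = a * y * (a * y * a⁻¹)⁻¹ by group, e1, inv_inv, mul_assoc, ey,
      ← mul_assoc, aa, one_mul]
  · have h3 : a * b ∈ 𝐂[f] := mul_mem (mem_cent1'.2 h1) (mem_cent1'.2 h2)
    exact mem_cent1'.1 (mul_mem (mem_cent1'.2 h1) (zpowers_le.2 h3 hy))

namespace MC
variable {s a b : X} {I : Set X} (m : MC s a b I)
include m

omit [Finite X] in
theorem aK : a ∈ KI s I := ⟨m.ha, fun h => m.ne (m.cb a h), m.ca⟩

omit [Finite X] in
theorem bK : b ∈ KI s I := ⟨m.hb, fun h => m.ne (m.ca b h).symm, m.cb⟩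

omit [Finite X] in
theorem aJ : a ∈ Jc s I a := ⟨m.aK, rfl⟩

omit [Finite X] in
theorem bJ : b ∈ Jc s I b := ⟨m.bK, rfl⟩

theorem tr {c d e : X} (hc : c ∈ KI s I) (hd : d ∈ KI s I) (he : e ∈ KI s I)
    (h1 : d * c = c * d) (h2 : e * c = c * e) : d * e = e * d := by
  by_contra hn
  have := m.max d e (insert c I) ⟨hd.1, he.1, hn, ?_, ?_, ?_, ?_⟩
  · rw [Set.ncard_insert_of_notMem hc.2.1] at this
    omega
  · rintro i (rfl | hi)
    exacts [hc.1, m.sub i hi]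
  · rintro i (rfl | hi) j (rfl | hj)
    exacts [rfl, (hc.2.2 j hj).symm, hc.2.2 i hi, m.comm i hi j hj]
  · rintro i (rfl | hi)
    exacts [h1.symm, hd.2.2 i hi]
  · rintro i (rfl | hi)
    exacts [h2.symm, he.2.2 i hi]

theorem J_comm {c d e : X} (hc : c ∈ KI s I) (hd : d ∈ Jc s I c) (he : e ∈ Jc s I c) :
    d * e = e * d := m.tr hc hd.1 he.1 hd.2 he.2

theorem J_ne {d e : X} (hd : d ∈ Jc s I a) (he : e ∈ Jc s I b) : d * e ≠ e * d := fun h =>
  m.ne (m.tr he.1 m.aK m.bK (m.tr hd.1 m.aK he.1 hd.2.symm h.symm) he.2.symm)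

theorem J_map {g c d e f : X} (hg : g ∈ centralizer I) (hc : c ∈ KI s I) (hd : d ∈ KI s I)
    (he : e ∈ Jc s I c) (h : g * e * g⁻¹ ∈ Jc s I d) (hf : f ∈ Jc s I c) :
    g * f * g⁻¹ ∈ Jc s I d :=
  ⟨KI_conj hg hf.1, m.tr h.1 (KI_conj hg hf.1) hd (comm_conj (m.J_comm hc hf he)) h.2.symm⟩

theorem swap (ot : OT s) (ho : Odd (Jc s I a).ncard) : ∃ O : Subgroup X, Odd (Nat.card O) ∧
    (∀ y ∈ O, ∀ e ∈ Jc s I a, y * e * y⁻¹ ∈ Jc s I a) ∧
    (∀ d ∈ centralizer I, d * a = a * d → d * b = b * d → d ∈ 𝐍(O)) ∧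
    ∀ e ∈ Jc s I a, ∃ y ∈ O, y * a * y⁻¹ = e ∧
      ∀ f, f * a = a * f → f * e = e * f → f * b = b * f → f * y = y * f := by
  set U := Jc s I a ∪ Jc s I b with hU
  set M := centralizer I ⊓ normalizer U with hM
  have mid : ∀ e ∈ Jc s I a, ∃ c ∈ M, IsConj s c ∧ c * e * c⁻¹ = b ∧
      (∀ u ∈ U, c * u * c⁻¹ * u ≠ u * (c * u * c⁻¹)) ∧
      ∀ f, f * e = e * f → f * b = b * f → f * c = c * f := fun e he => by
    obtain ⟨c, h1, h2, h3⟩ := ot.mid he.1.1 m.hb (m.J_ne he m.bJ)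
    have ci : c⁻¹ = c := inv_eq_of_mul_eq_one_left (sq_of_isConj ot.ord h1)
    have h4 : c ∈ centralizer I := fun i hi => h3 i (he.1.2.2 i hi) (m.cb i hi)
    have h5 : ∀ u ∈ Jc s I a, c * u * c⁻¹ ∈ Jc s I b := fun u hu =>
      m.J_map h4 m.aK m.bK he (h2 ▸ m.bJ) hu
    have h6 : ∀ u ∈ Jc s I b, c * u * c⁻¹ ∈ Jc s I a := fun u hu =>
      m.J_map h4 m.bK m.aK m.bJ (by
        rw [← h2, show c * (c * e * c⁻¹) * c⁻¹ = c * c * e * (c * c)⁻¹ by
          simp only [mul_assoc, mul_inv_rev], sq_of_isConj ot.ord h1]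
        simpa using he) hu
    have h7 : ∀ u ∈ U, c * u * c⁻¹ ∈ U := fun u hu =>
      hu.elim (fun x => .inr (h5 u x)) fun x => .inl (h6 u x)
    refine ⟨c, ⟨h4, mem_norm_set h7 (by simpa [ci] using h7)⟩, h1, h2, fun u hu => ?_, h3⟩
    exact hu.elim (fun x y => m.J_ne x (h5 u x) y.symm) fun x => m.J_ne (h6 u x) x
  have uniq : ∀ c ∈ M, ∀ c' ∈ M, IsConj s c → IsConj s c' →
      (∀ u ∈ U, c * u * c⁻¹ * u ≠ u * (c * u * c⁻¹)) →
      (∀ u ∈ U, c' * u * c'⁻¹ * u ≠ u * (c' * u * c'⁻¹)) → c * c' = c' * c → c = c' :=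
    fun c hc c' hc' k k' w w' e => by
      obtain ⟨x, hx, h1⟩ := exists_fixed_of_odd ho (r := c * c') (by
        rw [mul_assoc, ← mul_assoc c', ← e, mul_assoc, sq_of_isConj ot.ord k', mul_one,
          sq_of_isConj ot.ord k]) fun x hx => by
        have h1 : c' * x * c'⁻¹ ∈ Jc s I b := ((hc'.2 x).1 (.inl hx)).resolve_left fun y =>
          w' x (.inl hx) (m.J_comm m.aK y hx)
        rw [show c * c' * x * (c * c')⁻¹ = c * (c' * x * c'⁻¹) * c⁻¹ by group]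
        exact ((hc.2 _).1 (.inr h1)).resolve_right fun y => w _ (.inr h1) (m.J_comm m.bK y h1)
      exact ot.nc c c' x k k' hx.1.1 e h1 fun y => w x (.inl hx) (by
        rw [← y, mul_inv_cancel_right])
  obtain ⟨c, cM, ck, ca, cw, cf⟩ := mid a m.aJ
  have c2 : orderOf c = 2 := by
    obtain ⟨g, rfl⟩ := isConj_iff.1 ck
    exact (orderOf_conj g s).trans ot.ord
  have zs : ∀ g ∈ M, g * c * g⁻¹ * c⁻¹ ∈ Od M := fun g hg => zstar_amb cM c2 (fun k hk e =>
    (uniq c cM _ (mul_mem (mul_mem hk cM) (inv_mem hk)) ck (isConj_conj ck k) cw (fun u hu y =>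
      cw _ (((inv_mem hk).2 u).1 hu) (comm_of_conj (g := k) (by
        simpa [mul_assoc] using y))) e).symm) hg
  refine ⟨Od M, odd_Od M, fun y hy e he => ?_, fun d h1 h2 h3 => le_norm_Od M ⟨h1, ?_⟩,
    fun e he => ?_⟩
  · obtain ⟨u, hu, rfl⟩ := exists_sqrt (odd_of_mem_Od hy)
    have uM : u ∈ M := zpowers_le.2 (Od_le M hy) hu
    rw [show u * u * e * (u * u)⁻¹ = u * (u * e * u⁻¹) * u⁻¹ by
      simp only [mul_assoc, mul_inv_rev]]
    rcases (uM.2 e).1 (.inl he) with x | x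
    · exact m.J_map uM.1 m.aK m.aK he x x
    · refine ((uM.2 _).1 (.inr x)).resolve_right fun y => m.J_ne he x (comm_of_conj (g := u) ?_)
      exact m.J_comm m.bK x y
  · have key : ∀ d ∈ centralizer I, d * a = a * d → d * b = b * d → ∀ u ∈ U, d * u * d⁻¹ ∈ U :=
      fun d h1 h2 h3 u hu => hu.elim
        (fun x => .inl (m.J_map h1 m.aK m.aK m.aJ (by rw [h2, mul_inv_cancel_right]; exact m.aJ) x))
        fun x => .inr (m.J_map h1 m.bK m.bK m.bJ (by rw [h3, mul_inv_cancel_right]; exact m.bJ) x)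
    refine mem_norm_set (key d h1 h2 h3) ?_
    simpa using key d⁻¹ (inv_mem h1) (mem_cent1.1 (inv_mem (mem_cent1.2 h2)))
      (mem_cent1.1 (inv_mem (mem_cent1.2 h3)))
  · obtain ⟨c', cM', ck', ca', cw', cf'⟩ := mid e he
    have ci : c⁻¹ = c := inv_eq_of_mul_eq_one_left (sq_of_isConj ot.ord ck)
    have ci' : c'⁻¹ = c' := inv_eq_of_mul_eq_one_left (sq_of_isConj ot.ord ck')
    refine ⟨c'⁻¹ * c, ?_, ?_, fun f h1 h2 h3 => ?_⟩
    · rcases ot.f1 c' c ck' ck with x | x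
      · rw [uniq c' cM' c cM ck' ck cw' cw x, inv_mul_cancel]
        exact one_mem _
      · obtain ⟨y, hy, e1⟩ := H5.exists_conj_of_odd (s := c') (t := c)
          (by rw [sq]; exact sq_of_isConj ot.ord ck') (by rw [sq]; exact sq_of_isConj ot.ord ck)
          (Nat.coprime_two_right.2 x)
        have := zs y (zpowers_le.2 (mul_mem cM' cM) hy)
        rwa [e1, ci, ← ci'] at this
    · rw [show c'⁻¹ * c * a * (c'⁻¹ * c)⁻¹ = c'⁻¹ * (c * a * c⁻¹) * c' by group, ca, ← ca']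
      group
    · exact mem_cent1'.1 (mul_mem (inv_mem (mem_cent1'.2 (cf' f h2 h3)))
        (mem_cent1'.2 (cf f h1 h3)))

end MC

end CfsgLib.RC
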