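import Cfsg.Agent.Lib.RC.Star
import Cfsg.Agent.Lib.RC.Tr

/-!
# The case `a ≥ 2`: real `2`-elements have central squares
-/

set_option autoImplicit false

namespace CfsgLib.RC

open Subgroup Cfsg CfsgLib.FT CfsgLib.FT.BGN CfsgLib.GW
open CfsgLib.FT.U4 (mem_cent1 mem_cent1' mem_cent mem_cent1_comm self_mem_cent1 cent1_conj
  orderOf_conj cent_le_cent1)

/-- The Sylow subgroups are large. -/
structure Bg (G : Type*) [Group G] (N : ℕ) : Prop extends Hy G N where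
  big : ∀ S : Subgroup G, IsSylowIn 2 S ⊤ → 2 * N < Nat.card S

variable {G : Type*} [Group G] [Finite G] {N : ℕ}

theorem Hy.eq_of_pr (h : Hy G N) {a b : G} (ha : Odd (orderOf a)) (hb : Odd (orderOf b))
    (e : pr G a = pr G b) : a = b := by
  have h1 := pr_eq.1 e
  obtain ⟨k, hk⟩ := two_iff.1 (two_of_mem h.two_center h1)
  have h2 : Commute (a * b⁻¹) b := (cen_comm h1 b).symm
  have h3 : a ^ 2 ^ k = b ^ 2 ^ k := by
    have := h2.mul_pow (2 ^ k)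
    rwa [inv_mul_cancel_right, hk, one_mul] at this
  clear hk
  induction k with
  | zero => simpa using h3
  | succ k ih =>
    refine ih (eq_of_sq_eq (ha.of_dvd_nat (orderOf_pow_dvd _)) (hb.of_dvd_nat (orderOf_pow_dvd _)) ?_)
    rwa [pow_succ, pow_mul, pow_mul, sq, sq] at h3

theorem Hy.inv_of_pr (h : Hy G N) {x y : G} (ho : Odd (orderOf x))
    (e : pr G y * pr G x * (pr G y)⁻¹ = (pr G x)⁻¹) : y * x * y⁻¹ = x⁻¹ :=
  h.eq_of_pr (by rwa [orderOf_conj]) (by rwa [orderOf_inv]) (by simpa using e)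

theorem Hy.cent_of_pr (h : Hy G N) {x y : G} (ho : Odd (orderOf x))
    (e : pr G y * pr G x = pr G x * pr G y) : y ∈ 𝐂[x] :=
  U4.mem_cent1_of_conj_eq (h.eq_of_pr (by rwa [orderOf_conj]) ho (by
    rw [map_mul, map_mul, e, map_inv, mul_inv_cancel_right]))

namespace Bg
variable (h : Bg G N)
include h

theorem exists_out {g r t : G} {D : Subgroup G} (d : DE N g D t) (g2 : g * g ≠ 1)
    (hr : r ∉ center G) (h2 : r * r ∈ center G) (hD : D ≤ 𝐂[r]) (tr : t * r * t⁻¹ = r⁻¹) :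
    ∃ y ∈ 𝐍(D), y * y ∈ D ∧ y * t * y⁻¹ * t⁻¹ ∈ D ∧ y ∉ D ∧ y * t⁻¹ ∉ D ∧
      (y * r * y⁻¹ = r⁻¹ → y * t⁻¹ ∈ D) := by
  have := Fact.mk Nat.prime_two
  obtain ⟨S, h3, h4⟩ := IsSylowIn.exists_ge (H := Co r) d.two_E
    (sup_le (hD.trans (cent_le_Co r)) (zpowers_le.2 (mem_Co_of_inv h2 tr)))
  have h5 := h.big S (h.max ⟨t, tr⟩ hr h2 h4)
  have h6 : S ⊓ 𝐂[r] = D := h.le_of_cent ⟨t, tr⟩ hr d.card.ge (h4.isPGroup.to_le inf_le_left)
    (le_inf (le_sup_left.trans h3) hD) inf_le_right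
  obtain ⟨y, hy, h7⟩ : ∃ y ∈ S, y ∉ D ⊔ zpowers t := SetLike.not_le_iff_exists.1 fun e => by
    have := card_le_of_le e
    rw [d.card_E g2] at this
    omega
  have tS : t ∈ S := h3 (mem_sup_right (mem_zpowers t))
  refine ⟨y, h6 ▸ le_norm_inf_cent h4.le hy, h6 ▸ ⟨mul_mem hy hy, sq_mem_cent h2 (h4.le hy)⟩,
    h6 ▸ mem_inf.2 ⟨mul_mem (mul_mem (mul_mem hy tS) (inv_mem hy)) (inv_mem tS),
      comm_mem_cent (h4.le hy) (h4.le tS)⟩, fun e => h7 (d.mem_E.2 (.inl e)),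
    fun e => h7 (d.mem_E.2 (.inr e)), fun e => h6 ▸ ?_⟩
  exact mem_inf.2 ⟨mul_mem hy (inv_mem tS), mul_mem_cent e (inv_inverts tr)⟩

/-- Real `2`-elements have central squares. -/
theorem sq_center {g : G} (hr : Rl g) (h2 : Two g) : g * g ∈ center G := by
  by_contra hn
  have hz : g ∉ center G := fun e => hn (mul_mem e e)
  have g2 : g * g ≠ 1 := fun e => hn (e ▸ one_mem _)
  obtain ⟨r, hr', r1, r2⟩ := exists_sq_mem (h2.of_mem (mul_mem (mem_zpowers g) (mem_zpowers g))) hn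
  have rg : r ∈ zpowers g := zpowers_le.2 (mul_mem (mem_zpowers g) (mem_zpowers g)) hr'
  obtain ⟨t0, ht0⟩ := hr
  obtain ⟨t, -, t2, ht⟩ := exists_two_inv ht0 g2
  obtain ⟨U, d⟩ := h.exists_DE1 hz ht t2
  obtain ⟨y, yn, yy, yt, y1, y2, y3⟩ := h.exists_out d g2 r1 r2
    (d.le.trans (U4.cent1_le_cent1 rg)) (inv_of_mem_zpowers ht rg)
  have gU : g ∈ U := d.mem_of_rl h.toHy d.rl hz h2 (mem_cent.2 fun x hx => mem_cent1.1 (d.le hx))
  have cU : ∀ u ∈ U, u * (y * g * y⁻¹) * u⁻¹ = y * g * y⁻¹ := fun u hu => by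
    rw [← U4.conj_eq_of_mem_cent1 (d.le (conj_mem_of_mem_normalizer' yn hu))]
    have := U4.conj_eq_of_mem_cent1 (d.le (conj_mem_of_mem_normalizer' yn hu))
    conv_lhs => rw [this]
    group
  have gg : g * (y * g * y⁻¹) = y * g * y⁻¹ * g := mul_inv_eq_iff_eq_mul.1 (cU g gU)
  have e1 : t * (g * (y * g * y⁻¹)) * t⁻¹ = (g * (y * g * y⁻¹))⁻¹ := by
    rw [show t * (g * (y * g * y⁻¹)) * t⁻¹ = t * g * t⁻¹ * ((y * t * y⁻¹ * t⁻¹)⁻¹ *
      (y * (t * g * t⁻¹)⁻¹ * y⁻¹) * (y * t * y⁻¹ * t⁻¹)⁻¹⁻¹)⁻¹ by group, ht, inv_inv g,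
      cU _ (inv_mem yt), gg, mul_inv_rev (y * g * y⁻¹) g]
  have e2 : g * (y * g * y⁻¹) ∈ center G := by
    by_contra e
    refine y1 (h.mem_of_cent ⟨t, e1⟩ e d.two (fun u hu => U4.mem_cent1_of_conj_eq ?_) d.card.ge
      (U4.mem_cent1_of_conj_eq ?_) yn (two_of_sq (two_of_mem d.two yy)))
    · rw [show u * (g * (y * g * y⁻¹)) * u⁻¹ = u * g * u⁻¹ * (u * (y * g * y⁻¹) * u⁻¹) by group,
        cU u hu, U4.conj_eq_of_mem_cent1 (d.le hu)]
    · rw [show y * (g * (y * g * y⁻¹)) * y⁻¹ = y * g * y⁻¹ * (y * y * g * (y * y)⁻¹) by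
        simp only [mul_assoc, mul_inv_rev, inv_mul_cancel_left],
        U4.conj_eq_of_mem_cent1 (d.le yy), gg]
  have e3 := sq_of_inv_of_comm e1 (cen_comm e2 t)
  refine y2 (y3 (inv_of_mem_zpowers (g := g * g) ?_ hr'))
  have gc : Commute g (y * g * y⁻¹) := gg
  rw [show y * (g * g) * y⁻¹ = y * g * y⁻¹ * (y * g * y⁻¹) by group, eq_inv_iff_mul_eq_one, ← e3,
    ← sq, ← sq, ← sq, gc.mul_pow, (gc.pow_pow 2 2).eq]

theorem star {x : G} (ho : Odd (orderOf x)) (h1 : x ≠ 1) : Star x := fun e t he hc tx te => by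
  by_contra hz
  have x2 : x * x ≠ 1 := fun a => h1 (eq_one_of_odd_of_mul_self ho a)
  obtain ⟨u, hu, u2, ux⟩ := exists_two_inv tx x2
  have ue : u * e * u⁻¹ = e⁻¹ := (mem_Cs.1 (zpowers_le.2 (mem_Cs.2 (.inr te)) hu)).resolve_left
    fun a => h.r3 ho h1 he hz hc tx te a ux
  obtain ⟨D, d, d', -⟩ := h.setup ho h1 he hc ux ue u2
  obtain ⟨y, yn, yy, yt, y1, y2, -⟩ := h.exists_out d x2 hz (h.sq_center ⟨t, te⟩ he) d'.le ue
  exact (d.four h.toHy ho h1 yn yy yt).elim y1 y2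

theorem pair {a b : G} (e : a * a = b * b) (hz : a * a ∈ center G)
    (ne : pr G a * pr G b ≠ pr G b * pr G a) : ∃ x, Odd (orderOf x) ∧ x ≠ 1 ∧
      pr G x = pr G a * pr G b ∧ a * x * a⁻¹ = x⁻¹ := by
  have bi : (pr G b)⁻¹ = pr G b := inv_eq_of_mul_eq_one_left (pr_sq (e ▸ hz))
  have ai : (pr G a)⁻¹ = pr G a := inv_eq_of_mul_eq_one_left (pr_sq hz)
  obtain ⟨u, hu, v, hv, e1, u2, vo⟩ := GD.exists_two_part (a * b⁻¹)
  have e2 := inv_pair e hz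
  have e3 : pr G (a * b⁻¹) = pr G a * pr G b := by rw [map_mul, map_inv, bi]
  have v1 : v ≠ 1 := fun v1 => by
    rw [v1, mul_one] at e1
    have := pr_sq (h.sq_center ⟨a, e2⟩ (e1 ▸ u2))
    rw [e3] at this
    refine ne ?_
    rw [← inv_eq_of_mul_eq_one_left this, mul_inv_rev, ai, bi]
  have h2 := h.star vo v1 u a u2 (U4.cent1_le_cent1 hv (U4.zpowers_le_cent1 _ hu))
    (inv_of_mem_zpowers e2 hv) (inv_of_mem_zpowers e2 hu)
  exact ⟨v, vo, v1, by rw [← e3, e1, map_mul, pr_eq_one.2 h2, one_mul], inv_of_mem_zpowers e2 hv⟩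

theorem ot {s : G} (hs : s * s ∈ center G) (h1 : s ∉ center G) : OT (pr G s) := by
  refine ⟨orderOf_pr hs h1, fun a b ha hb => ?_, fun c c' a hc hc' ha e1 e2 ne => ?_⟩
  · obtain ⟨g, rfl⟩ := lift_conj ha
    obtain ⟨k, rfl⟩ := lift_conj hb
    refine or_iff_not_imp_left.2 fun ne => ?_
    obtain ⟨x, ho, -, e, -⟩ := h.pair ((sq_eq_of_conj hs g).trans (sq_eq_of_conj hs k).symm)
      ((sq_eq_of_conj hs g).symm ▸ hs) ne
    rw [← e]
    exact ho.of_dvd_nat (orderOf_map_dvd _ x)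
  · have c2 := sq_of_isConj (orderOf_pr hs h1) hc
    have c2' := sq_of_isConj (orderOf_pr hs h1) hc'
    obtain ⟨g, rfl⟩ := lift_conj hc
    obtain ⟨g', rfl⟩ := lift_conj hc'
    obtain ⟨k, rfl⟩ := lift_conj ha
    obtain ⟨x, ho, x1, e, cx⟩ := h.pair ((sq_eq_of_conj hs g).trans (sq_eq_of_conj hs k).symm)
      ((sq_eq_of_conj hs g).symm ▸ hs) (Ne.symm ne)
    have e3 := (sq_eq_of_conj hs g).trans (sq_eq_of_conj hs g').symm
    generalize g * s * g⁻¹ = c at *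
    generalize g' * s * g'⁻¹ = c' at *
    have h2 : c * c' ∈ 𝐂[x] := h.cent_of_pr ho (by
      rw [e, map_mul, ← mul_assoc, mul_assoc (pr G c), ← e1, ← mul_assoc, mul_assoc _ _ (pr G _),
        mul_assoc (pr G c) (pr G (k * s * k⁻¹)), ← e2]
      simp only [mul_assoc])
    have h3 := mul_inverts' h2 (inv_inverts cx)
    rw [inv_mul_cancel_left] at h3
    refine pr_eq.2 ((h.star ho x1).nc cx h3 e3 (h.two_of_sq_center (sq_of_pr ?_)))
    rw [map_mul, map_inv, inv_eq_of_mul_eq_one_left c2', mul_assoc, ← mul_assoc (pr G c'), ← e1,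
      mul_assoc, c2', mul_one, c2]

end Bg

end CfsgLib.RC
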