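import Cfsg.Agent.Lib.GD.QuoA
import Cfsg.Agent.Lib.GD.Main
import Cfsg.Agent.Lib.CharBurnside
import Cfsg.Agent.Lib.ClassSize2
import Cfsg.Agent.Lib.CoreInvol

/-!
# Dihedral Sylow `2`-subgroups: the commuting graph of the involutions has diameter at least three
-/

set_option autoImplicit false

namespace CfsgLib.RC

open Subgroup Cfsg CfsgLib.FT CfsgLib.FT.BGN CfsgLib.GW CfsgLib.GD
open CfsgLib.FT.U4 (mem_cent1 mem_cent1' mem_cent mem_cent1_comm cent1_conj orderOf_conj)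

universe u

theorem ball_le {α : Type*} [Finite α] {A : Set α} {t : α} {N : α → Set α} {m : ℕ}
    (h1 : (N t).ncard ≤ m) (h2 : ∀ u ∈ N t, t ∈ N u ∧ (N u).ncard ≤ m)
    (h : ∀ b ∈ A, b = t ∨ b ∈ N t ∨ ∃ u ∈ N t, b ∈ N u) : A.ncard ≤ 1 + m * m := by
  classical
  have h3 := Finset.card_biUnion_le_card_mul (N t).toFinite.toFinset
    (fun u => (insert u (N u \ {t})).toFinite.toFinset) m fun u hu => by
      obtain ⟨h4, h5⟩ := h2 u (by simpa using hu)
      have h6 := Set.ncard_insert_le u (N u \ {t})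
      have h7 := Set.ncard_sdiff_singleton_add_one h4
      rw [← Set.ncard_eq_toFinset_card]
      omega
  rw [← Set.ncard_eq_toFinset_card, ← Set.ncard_coe_finset] at h3
  refine (Set.ncard_le_ncard (t := insert t _) (fun b hb => ?_)).trans
    ((Set.ncard_insert_le _ _).trans ((Nat.add_le_add_right (h3.trans
      (Nat.mul_le_mul_right m h1)) 1).trans (add_comm _ _).le))
  by_cases e : b = t
  · exact Or.inl e
  rcases h b hb with h4 | h4 | ⟨u, h4, h5⟩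
  · exact Or.inl h4
  · exact Or.inr (by simpa using ⟨b, h4, Or.inl rfl⟩)
  · exact Or.inr (by simpa using ⟨u, h4, Or.inr ⟨h5, e⟩⟩)

variable {X : Type*} [Group X] [Finite X]

/-- The neighbours of `t` in `L`. -/
def Nb (L : Subgroup X) (t : X) : Set X := {s | s ∈ L ∧ Four t s}

theorem nb_conj {L : Subgroup X} [hL : L.Normal] (t g : X) :
    (Nb L (g * t * g⁻¹)).ncard ≤ (Nb L t).ncard :=
  Set.ncard_le_ncard_of_injOn (fun s => g⁻¹ * s * g⁻¹⁻¹) (fun s hs => ⟨hL.conj_mem _ hs.1 _, by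
    simpa [mul_assoc] using hs.2.conj g⁻¹⟩) fun a _ b _ e => by simpa using e

theorem nb_lin {L : Subgroup X} {t k : X} (h : Tor ⊤ L t k) (ht : orderOf t = 2) :
    (Nb L t).ncard ≤ orderOf k := by
  have h1 : Nb L t ∪ zpowers k ⊆ (L ⊓ 𝐂[t] : Subgroup X) :=
    Set.union_subset (fun s hs => ⟨hs.1, hs.2.s_cent⟩)
      (zpowers_le.2 (mem_inf.2 ⟨h.kL, h.kt⟩) :)
  have h2 := Set.ncard_le_ncard h1
  rw [Set.ncard_union_eq (Set.disjoint_left.2 fun s hs e => (uniq_zpowers e h.tk ht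
    hs.2.ss).elim hs.2.s1 fun e => hs.2.ne e.symm), ← Nat.card_coe_set_eq (zpowers k : Set X),
    ← Nat.card_coe_set_eq (SetLike.coe _)] at h2
  have h3 := h.card
  have h4 := Nat.card_zpowers k
  simp only [SetLike.coe_sort_coe] at h2
  omega

theorem nb_a7 (hX : Dih X) {L : Subgroup X} (h : A7 L) {t : X} (htL : t ∈ L)
    (ht : orderOf t = 2) : (Nb L t).ncard ≤ 8 := by
  obtain ⟨hc, u, ou, hu, ⟨s, hs, h4, hus⟩, -⟩ := h.cent t htL ht
  obtain ⟨huL, hut, -⟩ := (hu u).1 (mem_zpowers u)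
  set W := L ⊓ 𝐂[t] ⊓ 𝐂[s] with hW
  have hsC : s ∈ L ⊓ 𝐂[t] := ⟨hs, h4.s_cent⟩
  have hsW : s ∈ W := ⟨hsC, mem_cent1.2 rfl⟩
  have h12 : 12 ≤ Nat.card W := Nat.le_of_dvd Nat.card_pos (Nat.Coprime.mul_dvd_of_dvd_of_dvd
    (by norm_num : Nat.Coprime 4 3) (h4.four_dvd ⟨⟨htL, mem_cent1.2 rfl⟩, h4.symm.s_cent⟩ hsW)
    (ou ▸ W.orderOf_dvd_natCard ⟨⟨huL, hut⟩, hus⟩))
  set A := Nb L t \ W with hA
  have hAC : ∀ a ∈ A, a ∈ L ⊓ 𝐂[t] := fun a ha => ⟨ha.1.1, ha.1.2.s_cent⟩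
  have h1 : A ∪ (· * s) '' A ∪ W ⊆ (L ⊓ 𝐂[t] : Subgroup X) :=
    Set.union_subset (Set.union_subset hAC (by
      rintro _ ⟨a, ha, rfl⟩
      exact mul_mem (hAC a ha) hsC)) (inf_le_left : W ≤ _)
  have h2 := Set.ncard_le_ncard h1
  rw [Set.ncard_union_eq (Set.disjoint_left.2 (by
    rintro _ (ha | ⟨a, ha, rfl⟩) e
    exacts [ha.2 e, ha.2 ((W.mul_mem_cancel_right hsW).1 e)])),
    Set.ncard_union_eq (Set.disjoint_left.2 (by
      rintro _ hb ⟨a, ha, rfl⟩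
      refine ha.2 ⟨hAC a ha, mem_cent1.2 (Eq.symm ?_)⟩
      calc s * a = (a * s)⁻¹ := by
            rw [mul_inv_rev, inv_eq_of_mul_eq_one_right h4.ss,
              inv_eq_of_mul_eq_one_right ha.1.2.ss]
        _ = _ := inv_eq_of_mul_eq_one_right hb.1.2.ss)),
    Set.ncard_image_of_injective _ (mul_left_injective s),
    ← Nat.card_coe_set_eq (W : Set X), ← Nat.card_coe_set_eq (SetLike.coe _)] at h2
  simp only [SetLike.coe_sort_coe] at h2
  have h3 : Nb L t ⊆ insert s (insert (t * s) A) := fun a ha => by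
    by_cases e : a ∈ W
    · rcases hX.mem_V h4 ha.2.ss e.1.2 e.2 with e | e | e | e
      exacts [absurd e ha.2.s1, absurd e.symm ha.2.ne, Or.inl e, Or.inr (Or.inl e)]
    · exact Or.inr (Or.inr ⟨ha, e⟩)
  have h5 := Set.ncard_le_ncard h3
  have h6 := Set.ncard_insert_le s (insert (t * s) A)
  have h7 := Set.ncard_insert_le (t * s) A
  omega

theorem dih_end' {X : Type u} [Group X] [Finite X] (hX : GD.Dih X)
    (hO : GW.Od (⊤ : Subgroup X) = ⊥) (hO2 : pCore 2 X = ⊥) {t : X} (ht : orderOf t = 2)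
    {S : Subgroup X} (hS : IsSylowIn 2 S ⊤) (htS : S ≤ 𝐂[t])
    (h : ∀ b, IsConj t b → (∀ k : ℕ, (t * b) ^ (2 ^ k) ≠ 1) →
      ∃ u, orderOf u = 2 ∧ (∃ S₂, IsSylowIn 2 S₂ ⊤ ∧ S₂ ≤ 𝐂[u]) ∧ u * t = t * u ∧ u * b = b * u) :
    False := by
  have := Fact.mk Nat.prime_two
  have tt : t * t = 1 := by rw [← pow_two, ← ht, pow_orderOf_eq_one]
  rcases GD.exists_struct hX hO (fun Y _ _ _ a b c => GD.main Y a b c) with
    ⟨T, hT, h2, h3⟩ | ⟨L, hL, hL'⟩
  · have e : T = ⊥ := le_bot_iff.1 (hO2 ▸ le_pCore h2)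
    rw [e] at h3
    have : t = 1 := h3 (mem_centralizer_iff.2 fun g hg => by rw [mem_bot.1 hg]; simp)
    rw [this, orderOf_one] at ht
    omega
  have hn := hL.normal
  have mem : ∀ t, orderOf t = 2 → ∀ S : Subgroup X, IsSylowIn 2 S ⊤ → S ≤ 𝐂[t] → t ∈ L := by
    intro t ht S hS htS
    have tt : t * t = 1 := by rw [← pow_two, ← ht, pow_orderOf_eq_one]
    obtain ⟨a, ha, b, hb, h4⟩ := hX.exists_four_of_perf hL.perf hL.ne
    obtain ⟨g, -, hg⟩ := hS.exists_conj_le h4.isPGroup_V le_top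
    have h1 : ∀ x ∈ V a b, t ∈ 𝐂[g * x * g⁻¹] := fun x hx =>
      mem_cent1_comm.1 (htS (hg (mem_map_of_mem _ hx)))
    rcases hX.mem_V (h4.conj g) tt (h1 a (mem_sup_left (mem_zpowers a)))
      (h1 b (mem_sup_right (mem_zpowers b))) with e | e | e | e
    · exact e ▸ one_mem L
    · exact e ▸ hn.conj_mem a ha g
    · exact e ▸ hn.conj_mem b hb g
    · exact e ▸ mul_mem (hn.conj_mem a ha g) (hn.conj_mem b hb g)
  have htL := mem t ht S hS htS
  have key : (𝐂[t]).relIndex L ≤ 1 + (Nb L t).ncard * (Nb L t).ncard := by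
    rw [← Frob.ncard_conj_subgroup]
    refine ball_le (t := t) (N := Nb L) le_rfl (fun u hu => ⟨⟨htL, hu.2.symm⟩, ?_⟩) ?_
    · obtain ⟨g, -, rfl⟩ := hL.one t htL u hu.1 ht hu.2.os
      exact nb_conj t g
    rintro _ ⟨g, hg, rfl⟩
    set b := g * t * g⁻¹ with hb
    have ob : orderOf b = 2 := (orderOf_conj g t).trans ht
    have hbL : b ∈ L := hn.conj_mem t htL g
    have bb : b * b = 1 := by rw [← pow_two, ← ob, pow_orderOf_eq_one]
    clear_value b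
    by_cases e : b = t
    · exact Or.inl e
    obtain ⟨u, huL, ou, h1, h2⟩ : ∃ u ∈ L, orderOf u = 2 ∧ u * t = t * u ∧ u * b = b * u := by
      by_cases e' : ∀ k : ℕ, (t * b) ^ (2 ^ k) ≠ 1
      · obtain ⟨u, ou, ⟨S₂, h3, h4⟩, h1, h2⟩ := h b (isConj_iff.2 ⟨g, hb.symm⟩) e'
        exact ⟨u, mem u ou S₂ h3 h4, ou, h1, h2⟩
      push Not at e'
      obtain ⟨k, hk⟩ := e'
      obtain ⟨v, hv, ov⟩ := exists_inv_mem (S := zpowers (t * b)) (z := t * b)
        (isPGroup_zpowers_iff.2 (((Nat.dvd_prime_pow Nat.prime_two).1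
          (orderOf_dvd_of_pow_eq_one hk)).imp fun _ h => h.2)) (mem_zpowers _) fun e' => e (by
          rw [← inv_eq_of_mul_eq_one_right e', inv_eq_of_mul_eq_one_right tt])
      have vv : v⁻¹ = v := inv_eq_of_mul_eq_one_right (by rw [← pow_two, ← ov, pow_orderOf_eq_one])
      have i1 := Invol.inverts_of_mem_zpowers (a := t) (c := t * b) (by
        rw [mul_inv_rev, inv_eq_of_mul_eq_one_right tt, inv_eq_of_mul_eq_one_right bb, ← mul_assoc,
          tt, one_mul]) hv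
      have i2 := Invol.inverts_of_mem_zpowers (a := b) (c := t * b) (by
        rw [mul_inv_rev, inv_eq_of_mul_eq_one_right tt, ← mul_assoc, mul_inv_cancel_right,
          inv_eq_of_mul_eq_one_right bb]) hv
      rw [vv, mul_inv_eq_iff_eq_mul] at i1 i2
      exact ⟨v, zpowers_le.2 (mul_mem htL hbL) hv, ov, i1.symm, i2.symm⟩
    by_cases e1 : u = t
    · exact Or.inr (Or.inl ⟨hbL, ht, ob, e1 ▸ h2, Ne.symm e⟩)
    by_cases e2 : u = b
    · exact Or.inr (Or.inl ⟨hbL, ht, ob, (e2 ▸ h1).symm, Ne.symm e⟩)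
    exact Or.inr (Or.inr ⟨u, ⟨huL, ht, ou, h1.symm, Ne.symm e1⟩, hbL, ou, ob, h2, e2⟩)
  have hc := card_inf_mul_relIndex (𝐂[t]) L
  rw [inf_comm] at hc
  rcases hL' with hL' | hL'
  · obtain ⟨k, hk⟩ := hL'.inner t htL ht
    obtain ⟨ε, hε, e⟩ := hk.index
    have h1 := nb_lin hk ht
    have h2 : 2 ∣ orderOf k := ht ▸ orderOf_dvd_of_mem_zpowers hk.tk
    have h0 := orderOf_pos k
    have h3 : ((𝐂[t]).relIndex L : ℤ) ≤ 1 + orderOf k * orderOf k := by
      exact_mod_cast key.trans (Nat.add_le_add_left (Nat.mul_le_mul h1 h1) 1)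
    have h4 : orderOf k = 2 ∧ ε = -1 := by
      rw [e] at h3
      rcases hε with rfl | rfl
      · nlinarith
      · have : (orderOf k : ℤ) ≤ 3 := by nlinarith
        omega
    rw [h4.1, h4.2] at e
    have h5 : (𝐂[t]).relIndex L = 3 := by norm_num at e; exact_mod_cast e
    rw [hk.card, h4.1, h5] at hc
    exact hL.ne (eq_bot_of_perf hL.perf (isSolvable_of_card_eq_pow_mul_pow (a := 2) (b := 1)
      Nat.prime_two Nat.prime_three hc.symm))
  · have h1 := nb_a7 hX hL' htL ht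
    have h2 := key.trans (Nat.add_le_add_left (Nat.mul_le_mul h1 h1) 1)
    rw [(hL'.cent t htL ht).1, hL'.card] at hc
    omega

theorem dih_end {X : Type u} [Group X] [Finite X] (hX : GD.Dih X)
    (hO : GW.Od (⊤ : Subgroup X) = ⊥) (hO2 : pCore 2 X = ⊥) {t : X} (ht : orderOf t = 2)
    {S : Subgroup X} (hS : IsSylowIn 2 S ⊤) (htS : S ≤ 𝐂[t])
    (h : ∀ b, IsConj t b → (∀ k : ℕ, (t * b) ^ (2 ^ k) ≠ 1) →
      ∃ u, IsConj t u ∧ u * t = t * u ∧ u * b = b * u) : False :=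
  dih_end' hX hO hO2 ht hS htS fun b h1 h2 => by
    obtain ⟨u, hu, h3⟩ := h b h1 h2
    obtain ⟨c, rfl⟩ := isConj_iff.1 hu
    exact ⟨_, (orderOf_conj c t).trans ht, ⟨_, hS.map_conj_of_mem_normalizer
      (g := c) (le_normalizer_of_normal (mem_top c)), by rw [cent1_conj]; exact map_mono htS⟩, h3⟩

end CfsgLib.RC
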