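import Cfsg.Agent.Lib.RC.Basic
import Cfsg.Agent.Lib.Wal.Gen

/-!
# Real classes with equal `2`-parts: the centralizer of `O₂(G)`
-/

set_option autoImplicit false

namespace CfsgLib.RC

open Subgroup Cfsg CfsgLib.FT CfsgLib.FT.BGN CfsgLib.GW
open CfsgLib.FT.U4 (mem_cent1 mem_cent1' mem_cent mem_cent1_comm self_mem_cent1 cent1_conj
  orderOf_conj cent_le_cent1)

variable {G : Type*} [Group G] [Finite G] {N : ℕ}

theorem two_of_order {t : G} (h : ∃ k, orderOf t = 2 ^ k) : Two t :=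
  two_iff.2 (h.imp fun _ e => by rw [← e, pow_orderOf_eq_one])

theorem Rl.exists_two {x : G} (h : Rl x) : ∃ t, Two t ∧ t * x * t⁻¹ = x⁻¹ :=
  (H5.exists_two_element_inverts (isConj_iff.2 h)).imp fun _ a => ⟨two_of_order a.1, a.2⟩

/-- An element of odd order centralizing the real elements of a `2`-group centralizes it. -/
theorem le_cent_of_rl {Y : Subgroup G} (hY : IsPGroup 2 Y) {x : G} (ho : Odd (orderOf x))
    (hx : x ∈ 𝐍(Y)) (h : ∀ r ∈ Y, Rl r → r ∈ 𝐂[x]) : Y ≤ 𝐂[x] := by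
  have := commutator_eq_bot_of_centralizes_real (A := zpowers x) hY (zpowers_le.2 hx)
    (by rw [Nat.card_zpowers]; exact Nat.coprime_two_right.2 ho) fun r hr _ ⟨u, _, hu⟩ => by
      rw [H5.centralizer_zpowers_eq]; exact h r hr ⟨u, hu⟩
  rwa [commutator_eq_bot_iff_le_centralizer, H5.centralizer_zpowers_eq] at this

theorem DE.le_cent {x t : G} {D Y : Subgroup G} (d : DE N x D t) (h : Hy G N)
    (ho : Odd (orderOf x)) (hY : IsPGroup 2 Y) (h1 : D ≤ 𝐍(Y)) (h2 : x ∈ 𝐍(Y)) : Y ≤ 𝐂[x] := by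
  have := Fact.mk Nat.prime_two
  have xD : x ∈ 𝐂(D) := mem_cent.2 fun y hy => mem_cent1.1 (d.le hy)
  rw [← H5.centralizer_zpowers_eq]
  refine Wal.pxq d.two hY (by rw [Nat.card_zpowers]; exact Nat.coprime_two_right.2 ho) h1
    (zpowers_le.2 h2) (by rw [H5.centralizer_zpowers_eq]; exact d.le) ?_
  rw [H5.centralizer_zpowers_eq]
  refine le_cent_of_rl hY.to_inf_left ho (zpowers_le.1 (le_normalizer_inf (zpowers_le.2 h2)
    (zpowers_le.2 (le_normalizer xD)))) fun r hr hl => ?_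
  by_cases hz : r ∈ center G
  · exact mem_cent1.2 (cen_comm hz x).symm
  · exact d.le (d.mem_of_rl h hl hz (two_of_mem hY hr.1) hr.2)

theorem norm_pCore (x : G) : x ∈ 𝐍(pCore 2 G) := le_normalizer_of_normal (mem_top x)

namespace Hy

variable (h : Hy G N)
include h

/-- Real elements of odd order centralize `O₂(G)`. -/
theorem odd_mem_cent {x : G} (hr : Rl x) (ho : Odd (orderOf x)) : x ∈ 𝐂(pCore 2 G) := by
  have := Fact.mk Nat.prime_two
  by_cases h1 : x = 1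
  · exact h1 ▸ one_mem _
  obtain ⟨t, ht, e⟩ := hr.exists_two
  obtain ⟨D, d⟩ := h.exists_DE1 (not_center_of_odd ho h1 e) e ht
  exact mem_cent.2 fun q hq => mem_cent1.1
    (d.le_cent h ho (pCore_isPGroup 2) (fun y _ => norm_pCore y) (norm_pCore x) hq)

theorem exists_real' (hn : ¬ Odd (pCore 2 G).index) :
    ∃ g : 𝐂(pCore 2 G), g ^ 4 = 1 ∧ IsConj g g⁻¹ ∧ g ∉ center 𝐂(pCore 2 G) := by
  have := Fact.mk Nat.prime_two
  by_contra h1
  push Not at h1
  have h2 := nilp2_of_hnpc (hnpc_two_of_real_central h1)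
  obtain ⟨P⟩ : Nonempty (Sylow 2 G) := inferInstance
  have h3 := H5.sylow_two_normal_of_not_real (fun y hp hy hr => by
    have ho := hp.odd_of_ne_two hy
    have h4 := Od_le_Od le_top (le_normalizer_of_normal (K := ⊤))
      (h2 y (h.odd_mem_cent (isConj_iff.1 hr) ho) ho)
    rw [h.od, mem_bot] at h4
    rw [h4, orderOf_one] at hp
    exact Nat.not_prime_one hp) P
  exact hn ((Nat.not_even_iff_odd.1 fun e => P.not_dvd_index (even_iff_two_dvd.1 e)).of_dvd_nat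
    (index_dvd_of_le (le_pCore P.isPGroup')))

theorem exists_real (hn : ¬ Odd (pCore 2 G).index) :
    ∃ g, Two g ∧ Rl g ∧ g ∈ 𝐂(pCore 2 G) ∧ g ∉ pCore 2 G := by
  obtain ⟨g, h1, h2, h3⟩ := h.exists_real' hn
  obtain ⟨c, hc⟩ := isConj_iff.1 h2
  exact ⟨g, two_iff.2 ⟨2, congrArg Subtype.val h1⟩, ⟨c, congrArg Subtype.val hc⟩, g.2, fun e =>
    h3 (mem_center_iff.2 fun y => Subtype.ext (mem_cent.1 y.2 g e).symm)⟩

theorem exists_inv (hn : ¬ Odd (pCore 2 G).index) : ∃ x t, Odd (orderOf x) ∧ x ≠ 1 ∧ Two t ∧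
    t ∈ 𝐂(pCore 2 G) ∧ t * x * t⁻¹ = x⁻¹ := by
  have := Fact.mk Nat.prime_two
  by_contra h1
  push Not at h1
  obtain ⟨g, h2, -, h3, h4⟩ := h.exists_real hn
  obtain ⟨P, hP⟩ := IsPGroup.exists_le_sylow
    (show IsPGroup 2 (zpowers (⟨g, h3⟩ : 𝐂(pCore 2 G))) from two_iff.2
      ((two_iff.1 h2).imp fun _ e => Subtype.ext e))
  have h5 := H5.sylow_two_normal_of_not_real (fun y hp hy hr => by
    obtain ⟨u, hu, e⟩ := H5.exists_two_element_inverts hr
    refine h1 y u (by rw [Subgroup.orderOf_coe]; exact hp.odd_of_ne_two hy) (fun e => ?_)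
      (two_of_order (by rwa [Subgroup.orderOf_coe])) u.2 (congrArg Subtype.val e)
    rw [show y = 1 from Subtype.ext e, orderOf_one] at hp
    exact Nat.not_prime_one hp) P
  have h6 := H1.pCoreOf_le_of_le_normalizer (p := 2) (le_top : 𝐂(pCore 2 G) ≤ ⊤)
    le_normalizer_of_normal
  rw [H1.pCoreOf_top] at h6
  exact h4 (h6 ⟨_, le_pCore P.isPGroup' (hP (mem_zpowers _)), rfl⟩)

end Hy

end CfsgLib.RC
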