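import Cfsg.Agent.Lib.RC.Pure

/-!
# Elements inverting both an element of odd order and a `2`-element
-/

set_option autoImplicit false

namespace CfsgLib.RC

open Subgroup Cfsg CfsgLib.FT CfsgLib.FT.BGN CfsgLib.GW
open CfsgLib.FT.U4 (mem_cent1 mem_cent1' mem_cent mem_cent1_comm self_mem_cent1 cent1_conj
  orderOf_conj cent_le_cent1)

variable {G : Type*} [Group G]

/-- No non-central `2`-element of `C(x)` is inverted by an element inverting `x`. -/
def Star (x : G) : Prop :=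
  ∀ e t : G, Two e → e ∈ 𝐂[x] → t * x * t⁻¹ = x⁻¹ → t * e * t⁻¹ = e⁻¹ → e ∈ center G

/-- The projection onto the quotient by the centre. -/
abbrev pr (G : Type*) [Group G] : G →* G ⧸ center G := QuotientGroup.mk' (center G)

theorem pr_eq {a b : G} : pr G a = pr G b ↔ a * b⁻¹ ∈ center G := by
  rw [← mul_inv_eq_one, ← map_inv, ← map_mul]
  exact QuotientGroup.eq_one_iff _

theorem pr_eq_one {a : G} : pr G a = 1 ↔ a ∈ center G := QuotientGroup.eq_one_iff _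

theorem pr_surj (x : G ⧸ center G) : ∃ g, pr G g = x := QuotientGroup.mk'_surjective _ x

theorem mem_Co_iff {r y : G} : y ∈ Co r ↔ pr G y * pr G r = pr G r * pr G y := by
  rw [mem_Co, ← pr_eq_one, ph, map_mul, map_inv, inv_mul_eq_one, map_mul, map_mul, map_inv,
    eq_mul_inv_iff_mul_eq, eq_comm]

theorem pr_sq {a : G} (h : a * a ∈ center G) : pr G a * pr G a = 1 := by
  rw [← map_mul, pr_eq_one]; exact h

theorem sq_of_pr {a : G} (h : pr G a * pr G a = 1) : a * a ∈ center G := by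
  rwa [← map_mul, pr_eq_one] at h

theorem orderOf_pr {a : G} (h : a * a ∈ center G) (h1 : a ∉ center G) : orderOf (pr G a) = 2 :=
  inv_of_mul_self (pr_sq h) fun e => h1 (pr_eq_one.1 e)

theorem sq_eq_of_conj {a : G} (h : a * a ∈ center G) (g : G) :
    g * a * g⁻¹ * (g * a * g⁻¹) = a * a := by
  rw [← cen_conj h g]; group

variable [Finite G]

theorem mem_zpowers_mul {e x : G} (he : Two e) (ho : Odd (orderOf x)) (hc : e ∈ 𝐂[x]) :
    e ∈ zpowers (e * x) ∧ x ∈ zpowers (e * x) := by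
  have hc' : Commute e x := mem_cent1.1 hc
  obtain ⟨k, hk⟩ := two_iff.1 he
  have h1 : x ∈ zpowers (e * x) := by
    have h2 : x ^ 2 ^ k ∈ zpowers (e * x) := by
      have := pow_mem (mem_zpowers (e * x)) (2 ^ k)
      rwa [hc'.mul_pow, hk, one_mul] at this
    exact zpowers_le.2 h2 (mem_zpowers_pow_iff.2
      (Nat.Coprime.pow_left k (Nat.coprime_two_left.2 ho)))
  refine ⟨?_, h1⟩
  have := mul_mem (mem_zpowers (e * x)) (inv_mem h1)
  rwa [mul_inv_cancel_right] at this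

theorem exists_two_inv {g t : G} (e : t * g * t⁻¹ = g⁻¹) (h2 : g * g ≠ 1) :
    ∃ u ∈ zpowers t, Two u ∧ u * g * u⁻¹ = g⁻¹ := by
  obtain ⟨u, hu, v, hv, e1, u2, vo⟩ := GD.exists_two_part t
  have h1 : v ∈ 𝐂[g] := by
    have h3 : v * v ∈ 𝐂[g] := by
      rcases mem_Cs.1 (zpowers_le.2 (mem_Cs.2 (.inr e)) hv) with a | a
      · exact mul_mem a a
      · exact mul_mem_cent a a
    exact zpowers_le.2 h3 (mem_zpowers_sq vo)
  refine ⟨u, hu, u2, ?_⟩
  have := mul_inverts' (inv_mem h1) e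
  rwa [e1, mul_inv_cancel_right] at this

namespace Hy
variable {N : ℕ} (h : Hy G N)
include h

theorem setup' {x e t : G} (ho : Odd (orderOf x)) (h1 : x ≠ 1) (he : Two e)
    (hc : e ∈ 𝐂[x]) (tx : t * x * t⁻¹ = x⁻¹) (te : t * e * t⁻¹ = e⁻¹) {T : Subgroup G}
    (hT : IsPGroup 2 T) (hle : T ≤ Cs (e * x)) (ht : t ∈ T) :
    ∃ D, DE N x D t ∧ DE N e D t ∧ e ∈ D ∧ T ⊓ 𝐂[e * x] ≤ D := by
  obtain ⟨h2, h3⟩ := mem_zpowers_mul he ho hc
  have e1 : t * (e * x) * t⁻¹ = (e * x)⁻¹ := by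
    rw [show t * (e * x) * t⁻¹ = t * e * t⁻¹ * (t * x * t⁻¹) by group, te, tx, mem_cent1.1 hc,
      mul_inv_rev]
  have hz : e * x ∉ center G := fun a => not_center_of_odd ho h1 tx (zpowers_le.2 a h3)
  obtain ⟨D, d, h4⟩ := h.exists_DE hz e1 hT hle ht
  have h5 := d.le.trans (U4.cent1_le_cent1 h2)
  exact ⟨D, ⟨d.two, d.le.trans (U4.cent1_le_cent1 h3), d.card, tx, d.norm, d.sq⟩,
    ⟨d.two, h5, d.card, te, d.norm, d.sq⟩,
    d.mem h hz (U4.zpowers_le_cent1 _ h2)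
      (cent_le_norm _ (mem_cent.2 fun y hy => mem_cent1.1 (h5 hy))) he, h4⟩

theorem setup {x e t : G} (ho : Odd (orderOf x)) (h1 : x ≠ 1) (he : Two e)
    (hc : e ∈ 𝐂[x]) (tx : t * x * t⁻¹ = x⁻¹) (te : t * e * t⁻¹ = e⁻¹) (ht : Two t) :
    ∃ D, DE N x D t ∧ DE N e D t ∧ e ∈ D := by
  obtain ⟨D, a, b, c, -⟩ := h.setup' ho h1 he hc tx te ht (zpowers_le.2 (mem_Cs.2 (.inr (by
    rw [show t * (e * x) * t⁻¹ = t * e * t⁻¹ * (t * x * t⁻¹) by group, te, tx, mem_cent1.1 hc,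
      mul_inv_rev])))) (mem_zpowers t)
  exact ⟨D, a, b, c⟩

/-- If `t` inverts `x` and `e`, nothing centralizing `e` inverts `x`. -/
theorem r3 {x e t c : G} (ho : Odd (orderOf x)) (h1 : x ≠ 1) (he : Two e) (hz : e ∉ center G)
    (hc : e ∈ 𝐂[x]) (tx : t * x * t⁻¹ = x⁻¹) (te : t * e * t⁻¹ = e⁻¹) (ce : c ∈ 𝐂[e])
    (cx : c * x * c⁻¹ = x⁻¹) : False := by
  have := Fact.mk Nat.prime_two
  have x2 : x * x ≠ 1 := fun a => h1 (eq_one_of_odd_of_mul_self ho a)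
  obtain ⟨h2, h3⟩ := mem_zpowers_mul he ho hc
  have e1 : t * (e * x) * t⁻¹ = (e * x)⁻¹ := by
    rw [show t * (e * x) * t⁻¹ = t * e * t⁻¹ * (t * x * t⁻¹) by group, te, tx, mem_cent1.1 hc,
      mul_inv_rev]
  have hz' : e * x ∉ center G := fun a => not_center_of_odd ho h1 tx (zpowers_le.2 a h3)
  obtain ⟨u, hu, u2, ux⟩ := exists_two_inv cx x2
  have ue : u ∈ 𝐂[e] := zpowers_le.2 ce hu
  have e2 : 𝐂[e * x] = 𝐂[e] ⊓ 𝐂[x] := le_antisymm
    (le_inf (U4.cent1_le_cent1 h2) (U4.cent1_le_cent1 h3)) fun y hy => by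
      rw [mem_cent1, ← mul_assoc, mem_cent1.1 hy.1, mul_assoc, mem_cent1.1 hy.2, mul_assoc]
  obtain ⟨E, h4, h5⟩ := IsSylowIn.exists_ge (H := 𝐂[e] ⊓ Cs x) u2
    (zpowers_le.2 ⟨ue, mem_Cs.2 (.inr ux)⟩)
  have h6 := h5.inf_of_le_normalizer (K := 𝐂[e * x]) (e2 ▸ inf_le_inf_left _ (cent_le_Cs x))
    fun y hy => mem_normalizer_of_conj_mem fun a ha => by
      rw [e2] at ha ⊢
      exact mem_inf.2 ⟨mul_mem (mul_mem (h5.le hy).1 ha.1) (inv_mem (h5.le hy).1),
        conj_mem_of_mem_normalizer (Cs_le_norm x (h5.le hy).2) ha.2⟩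
  have h7 := h.card _ ⟨t, e1⟩ hz' _ h6
  have h8 := two_mul_le (inf_le_left : E ⊓ 𝐂[e * x] ≤ E) (h4 (mem_zpowers u)) fun a =>
    x2 (sq_of_inv_of_comm ux (mem_cent1.1 (U4.cent1_le_cent1 h3 a.2)))
  have h9 := h.le_N ⟨t, te⟩ hz h5.isPGroup (h5.le.trans inf_le_left)
  have := Nat.card_pos (α := ↥(E ⊓ 𝐂[e * x]))
  omega

theorem od_quot : Od (⊤ : Subgroup (G ⧸ center G)) = ⊥ := by
  set K := (Od (⊤ : Subgroup (G ⧸ center G))).comap (pr G) with hK
  have h0 : ∀ r ∈ K, Two r → r ∈ center G := fun r hr h2 => by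
    obtain ⟨k, hk⟩ := two_iff.1 h2
    exact pr_eq_one.1 (Two.eq_one (two_iff.2 ⟨k, by rw [← map_pow, hk, map_one]⟩)
      (odd_of_mem_Od hr))
  have h1 : Nilp2 K := nilp2_of_hnpc (hnpc_two_of_real_central fun r h4 _ =>
    mem_center_iff.2 fun y => Subtype.ext
      (cen_comm (h0 r r.2 (two_iff.2 ⟨2, congrArg Subtype.val h4⟩)) y))
  have h2 : Od K ≤ Od (⊤ : Subgroup G) := Od_le_Od le_top fun g _ =>
    mem_normalizer_of_conj_mem fun y hy => by
      rw [hK, mem_comap, map_mul, map_mul, map_inv]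
      exact conj_mem_of_mem_normalizer (le_norm_Od _ trivial) hy
  refine eq_bot_iff.2 fun y hy => ?_
  obtain ⟨g, rfl⟩ := pr_surj y
  replace hy : g ∈ K := hy
  obtain ⟨u, hu, v, hv, e, u2, vo⟩ := GD.exists_two_part g
  have h3 : v ∈ Od K := h1.le_Od (zpowers_le.2 (zpowers_le.2 hy hv)) (by rwa [Nat.card_zpowers])
    (mem_zpowers v)
  have h4 : v = 1 := by simpa [h.od] using h2 h3
  rw [e, h4, mul_one]
  exact pr_eq_one.2 (h0 u (zpowers_le.2 hy hu) u2)

end Hy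

namespace Star
variable {x : G} (st : Star x)
include st

omit [Finite G] in
theorem nc {a b : G} (ha : a * x * a⁻¹ = x⁻¹) (hb : b * x * b⁻¹ = x⁻¹) (e : a * a = b * b)
    (h2 : Two (a * b⁻¹)) : a * b⁻¹ ∈ center G := by
  refine st _ a h2 (mul_mem_cent ha (inv_inverts hb)) ha ?_
  have e : a * a * b⁻¹ = b := by rw [e]; group
  rw [← mul_assoc, e]; group

variable {N : ℕ} {D : Subgroup G} {w : G} (d : DE N x D w) (hw : w * w ∈ center G)
include d hw

omit [Finite G] in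
theorem le_Co : D ≤ Co w := fun y hy => by
  have h1 : w * (y * w * y⁻¹)⁻¹ ∈ D := by
    rw [show w * (y * w * y⁻¹)⁻¹ = w * y * w⁻¹ * y⁻¹ by group]
    exact mul_mem (conj_mem_of_mem_normalizer d.norm hy) (inv_mem hy)
  have h2 := st.nc d.inv (mul_inverts' (inv_mem (d.le hy)) (mul_inverts (d.le hy) d.inv))
    (sq_eq_of_conj hw y).symm (two_of_mem d.two h1)
  refine mem_Co_of (inv_mem h2) ?_
  rw [cen_comm (inv_mem h2)]; group

omit [Finite G] in
theorem E_le_Co : D ⊔ zpowers w ≤ Co w :=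
  sup_le (st.le_Co d hw) (zpowers_le.2 (self_mem_Co w))

omit [Finite G] in
theorem sq_mul {y : G} (hy : y ∈ D) (h2 : y * y ∈ center G) : y * w * (y * w) ∈ center G := by
  have h1 := mem_Co_comm (st.le_Co d hw hy)
  rw [show y * w * (y * w) = y * (w * y * w⁻¹) * (w * w) by group, conj_eq_ph, ← mul_assoc y y]
  exact mul_mem (mul_mem h2 h1) hw

omit [Finite G] in
theorem le_Co_of_sq {y : G} (hy : y ∈ D) (h2 : y * y ∈ center G) : D ≤ Co y := fun c hc => by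
  have h1 := st.le_Co (d.change (x := y * w) (by rwa [mul_inv_cancel_right])) (st.sq_mul d hw hy h2)
    hc
  have := mem_Co_mul h1 (mem_Co_inv (st.le_Co d hw hc))
  rwa [mul_inv_cancel_right] at this

omit [Finite G] in
theorem E_le_Co_of_sq {y : G} (hy : y ∈ D ⊔ zpowers w) (h2 : y * y ∈ center G) :
    D ⊔ zpowers w ≤ Co y := by
  rcases d.mem_E.1 hy with a | a
  · exact sup_le (st.le_Co_of_sq d hw a h2) (zpowers_le.2 (mem_Co_comm (st.le_Co d hw a)))
  · refine sup_le (st.le_Co (d.change a) h2) (zpowers_le.2 ?_)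
    have := mul_mem (inv_mem (st.le_Co (d.change a) h2 a)) (self_mem_Co y)
    rwa [mul_inv_rev, inv_inv, inv_mul_cancel_right] at this

omit [Finite G] in
/-- Involutions of `E / Z` outside `D / Z` are pairwise non-conjugate. -/
theorem nc_conj {a b : G} (ha : a * w⁻¹ ∈ D) (hb : b * w⁻¹ ∈ D) (h2 : a * a ∈ center G)
    (hZ : center G ≤ D) (e : IsConj (pr G a) (pr G b)) : pr G a = pr G b := by
  obtain ⟨k, hk⟩ := isConj_iff.1 e
  obtain ⟨g, rfl⟩ := pr_surj k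
  rw [← map_mul, ← map_inv, ← map_mul] at hk
  have h3 := pr_eq.1 hk
  have h4 : g * a * g⁻¹ * w⁻¹ ∈ D := by
    have := mul_mem (hZ h3) hb
    rwa [mul_assoc, inv_mul_cancel_left] at this
  have h5 : a * (g * a * g⁻¹)⁻¹ ∈ D := by
    have := mul_mem ha (inv_mem h4)
    rwa [mul_inv_rev, inv_inv, mul_assoc, inv_mul_cancel_left] at this
  rw [← hk]
  exact pr_eq.2 (st.nc (d.inv_of ha) (d.inv_of h4) (sq_eq_of_conj h2 g).symm (two_of_mem d.two h5))

end Star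

theorem lift_conj {w : G} {e : G ⧸ center G} (h : IsConj (pr G w) e) :
    ∃ g, pr G (g * w * g⁻¹) = e := by
  obtain ⟨k, rfl⟩ := isConj_iff.1 h
  obtain ⟨g, rfl⟩ := pr_surj k
  exact ⟨g, by simp⟩

omit [Finite G] in
theorem mem_of_pr {S : Subgroup G} (hZ : center G ≤ S) {g : G} (h : pr G g ∈ S.map (pr G)) :
    g ∈ S := by
  obtain ⟨s, hs, e⟩ := h
  have := mul_mem (hZ (pr_eq.1 e.symm)) hs
  rwa [inv_mul_cancel_right] at this

theorem sylow_pr {S : Subgroup G} (hS : IsSylowIn 2 S ⊤) : IsSylowIn 2 (S.map (pr G)) ⊤ := by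
  have := hS.map (pr G)
  rwa [map_top_of_surjective _ (QuotientGroup.mk'_surjective _)] at this

theorem Hy.fl {N : ℕ} (h : Hy G N) {x w : G} (ho : Odd (orderOf x)) (h1 : x ≠ 1) (st : Star x)
    {D S P : Subgroup G} (d : DE N x D w) (hw : w * w ∈ center G) (hS : IsSylowIn 2 S ⊤)
    (hE : D ⊔ zpowers w ≤ S) (hK : ∀ g, g * w * g⁻¹ ∈ S → g * w * g⁻¹ ∈ D ⊔ zpowers w)
    (hP : IsSylowIn 2 P ⊤) (hPw : P ≤ Co w) : False := by
  have hx := not_center_of_odd ho h1 d.inv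
  have x2 : x * x ≠ 1 := fun a => h1 (eq_one_of_odd_of_mul_self ho a)
  have hZ := d.center_le h hx
  have hw1 : w ∉ center G := fun a => d.notMem x2 (hZ a)
  have lf : ∀ e ∈ Yc (pr G w) (S.map (pr G)), ∃ b ∈ D ⊔ zpowers w, pr G b = e ∧
      b * b ∈ center G ∧ (e ≠ pr G w → b ∈ D) := fun e he => by
    obtain ⟨g, rfl⟩ := lift_conj he.2
    have h2 := hK g (mem_of_pr (hZ.trans (le_sup_left.trans hE)) he.1)
    refine ⟨_, h2, rfl, (sq_eq_of_conj hw g).symm ▸ hw, fun a => ?_⟩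
    refine (d.mem_E.1 h2).resolve_right fun b => a ?_
    exact (st.nc_conj d hw (by rw [mul_inv_cancel]; exact one_mem D) b hw hZ he.2).symm
  have key := fl_core (orderOf_pr hw hw1) (sylow_pr hS) (sylow_pr hP)
    (by rintro _ ⟨y, hy, rfl⟩; exact mem_cent1.2 (mem_Co_iff.1 (hPw hy)))
    (mem_map_of_mem _ (hE (mem_sup_right (mem_zpowers w)))) (fun e he e' he' => by
      obtain ⟨b, h2, rfl, -⟩ := lf e he
      obtain ⟨b', h3, rfl, h4, -⟩ := lf e' he'
      exact mem_Co_iff.1 (st.E_le_Co_of_sq d hw h3 h4 h2)) fun e he e' he' n1 n2 hc => by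
      obtain ⟨b, -, rfl, h2, h3⟩ := lf e he
      obtain ⟨b', -, rfl, -, h4⟩ := lf e' he'
      rw [← map_mul, ← map_mul] at hc
      have := st.nc_conj d hw (a := w * b) (b := w * b')
        (conj_mem_of_mem_normalizer d.norm (h3 n1)) (conj_mem_of_mem_normalizer d.norm (h4 n2))
        (by
          have := conj_mem_center (y := w).2 (st.sq_mul d hw (h3 n1) h2)
          rwa [show w * (b * w * (b * w)) * w⁻¹ = w * b * (w * b) by group] at this) hZ hc
      rwa [map_mul, map_mul, mul_right_inj] at this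
  have h2 := zstar_amb (M := ⊤) trivial (orderOf_pr hw hw1) (fun k _ => key k) (g := pr G x) trivial
  rw [h.od_quot, mem_bot, ← map_mul, ← map_inv, ← map_mul, ← map_inv, ← map_mul, pr_eq_one,
    show x * w * x⁻¹ * w⁻¹ = x * (w * x * w⁻¹)⁻¹ by group, d.inv, inv_inv] at h2
  exact hx (zpowers_le.2 h2 (mem_zpowers_sq ho))

end CfsgLib.RC
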