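import Cfsg.Agent.Lib.RC.OneA
import Cfsg.Agent.Lib.RC.Star

/-!
# Real classes with equal `2`-parts: the structure `C1` holds in the case `a = 1`
-/

set_option autoImplicit false

namespace CfsgLib.RC

open Subgroup Cfsg CfsgLib.FT CfsgLib.FT.BGN CfsgLib.GW

variable {G : Type*} [Group G] [Finite G] {N : ℕ}

theorem Hy.toC1 (h : Hy G N) (hS : ∀ T : Subgroup G, IsPGroup 2 T → Nat.card T ≤ 2 * N)
    (hn : ¬ Odd (pCore 2 G).index) : C1 G N :=
  h.c1 hS (fun _ _ _ _ a b c d e f g i j => h.r3 a b c d e f g i j)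
    (fun _ _ _ a b c _ e f g i => h.setup a b c e f g i) (fun x w D a b d e => by
      by_contra h1
      push Not at h1
      have st : Star x := h1
      have hE := d.sylow (sq_ne_of_odd a b) hS
      exact h.fl a b st d e hE le_rfl (fun _ k => k) hE (st.E_le_Co d e)) hn

/-- The case `a = 1`, given the endgame. -/
theorem one_of (fin : C1 G N → ∀ a ∈ 𝐂(pCore 2 G), Rl a → a * a ∈ center G → a * a ≠ 1 → False)
    (h : Hy G N) (hS : ∀ T : Subgroup G, IsPGroup 2 T → Nat.card T ≤ 2 * N)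
    (hn : ¬ Odd (pCore 2 G).index) : False :=
  let ⟨a, h1, h2, h3, h4⟩ := (h.toC1 hS hn).start hn
  fin (h.toC1 hS hn) a h1 h2 h3 h4

end CfsgLib.RC
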