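import Cfsg.Agent.Lib.RC.OneB
import Cfsg.Agent.Lib.RC.OneC

/-!
# Real classes with equal `2`-parts: the case `a = 1`
-/

set_option autoImplicit false

namespace CfsgLib.RC

open Subgroup Cfsg

universe u

theorem one {G : Type u} [Group G] [Finite G] {N : ℕ} (h : Hy G N)
    (hS : ∀ T : Subgroup G, IsPGroup 2 T → Nat.card T ≤ 2 * N)
    (hn : ¬ Odd (pCore 2 G).index) : False :=
  one_of (fun H _ h1 h2 h3 h4 => H.final h1 h2 h3 h4) h hS hn

end CfsgLib.RC
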