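import Cfsg.Agent.Lib.RC.Star

/-!
# The product over a block
-/

set_option autoImplicit false

namespace CfsgLib.RC

open Subgroup Cfsg CfsgLib.FT CfsgLib.FT.BGN CfsgLib.GW
open CfsgLib.FT.U4 (mem_cent1 mem_cent1' mem_cent mem_cent1_comm self_mem_cent1 cent1_conj
  orderOf_conj cent_le_cent1)

section prod
variable {Y ι : Type*} [Group Y] [DecidableEq ι] {f : ι → Y} (hc : ∀ i j, Commute (f i) (f j))

/-- The product of commuting elements. -/
def Pq (F : Finset ι) : Y := F.noncommProd f fun i _ j _ _ => hc i j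

omit [DecidableEq ι] in
theorem Pq_empty : Pq hc ∅ = 1 := Finset.noncommProd_empty _ _

theorem Pq_insert {i : ι} {F : Finset ι} (h : i ∉ F) : Pq hc (insert i F) = f i * Pq hc F :=
  Finset.noncommProd_insert_of_notMem _ _ _ _ h

omit [DecidableEq ι] in
theorem Pq_mem {H : Subgroup Y} (h : ∀ i, f i ∈ H) (F : Finset ι) : Pq hc F ∈ H :=
  Subgroup.noncommProd_mem _ _ fun i _ => h i

theorem Pq_conj {y z : Y} (hz : z ∈ center Y) {σ : ι → ι} (hσ : Function.Injective σ)
    (F : Finset ι) (h : ∀ i ∈ F, y * f i * y⁻¹ = f (σ i) * z) :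
    y * Pq hc F * y⁻¹ = Pq hc (F.image σ) * z ^ F.card := by
  induction F using Finset.induction_on with
  | empty => simp [Pq_empty]
  | insert i F hi ih =>
    rw [Finset.image_insert, Pq_insert hc hi, Pq_insert hc (by simpa [hσ.eq_iff] using hi),
      Finset.card_insert_of_notMem hi, show y * (f i * Pq hc F) * y⁻¹ =
        y * f i * y⁻¹ * (y * Pq hc F * y⁻¹) by group, h i (Finset.mem_insert_self _ _),
      ih fun j hj => h j (Finset.mem_insert_of_mem hj), pow_succ', mul_assoc, ← mul_assoc z,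
      ← cen_comm hz]
    group

theorem Pq_sq {z : Y} (F : Finset ι) (h : ∀ i ∈ F, f i * f i = z) :
    Pq hc F * Pq hc F = z ^ F.card := by
  induction F using Finset.induction_on with
  | empty => simp [Pq_empty]
  | insert i F hi ih =>
    have e : Pq hc F * f i = f i * Pq hc F :=
      mem_cent1.1 (Pq_mem hc (H := 𝐂[f i]) (fun j => mem_cent1.2 (hc j i)) F)
    rw [Pq_insert hc hi, Finset.card_insert_of_notMem hi, pow_succ',
      ← ih fun j hj => h j (Finset.mem_insert_of_mem hj), ← h i (Finset.mem_insert_self _ _),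
      mul_assoc, ← mul_assoc (Pq hc F), e]
    simp only [mul_assoc]

end prod

variable {G : Type*} [Group G]

theorem ph_center {z : G} (hz : z ∈ center G) (y : G) : ph z y = 1 :=
  ph_eq_one.2 (mem_cent1.2 (cen_comm hz y))

theorem ph_center' {z : G} (hz : z ∈ center G) (y : G) : ph y z = 1 :=
  ph_eq_one.2 (mem_cent1'.2 (cen_comm hz y))

theorem center_le_Co (r : G) : center G ≤ Co r := fun z hz => by
  rw [mem_Co, ph_center' hz]; exact one_mem _

theorem Pq_ph {Y ι : Type*} [Group Y] [DecidableEq ι] (q : G →* Y) (hq : q.ker ≤ center G)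
    {l : ι → G} (hc : ∀ i j, Commute (q (l i)) (q (l j))) {y z : G} (hz : z ∈ center G)
    (F : Finset ι) (h : ∀ i ∈ F, ph (l i) y = z) (p : G) (hp : q p = Pq hc F) :
    ph p y = z ^ F.card := by
  induction F using Finset.induction_on generalizing p with
  | empty => rw [ph_center (hq hp), Finset.card_empty, pow_zero]
  | insert i F hi ih =>
    obtain ⟨p', hp'⟩ := Pq_mem hc (H := q.range) (fun j => ⟨_, rfl⟩) F
    have e1 := h i (Finset.mem_insert_self _ _)
    have e2 := ih (fun j hj => h j (Finset.mem_insert_of_mem hj)) p' hp'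
    have e3 : (l i * p')⁻¹ * p ∈ center G := hq (by
      rw [MonoidHom.mem_ker, map_mul, map_inv, map_mul, hp, hp', Pq_insert hc hi, inv_mul_cancel])
    have c1 : y ∈ Co (l i) := by rw [mem_Co, e1]; exact hz
    have c2 : y ∈ Co p' := by rw [mem_Co, e2]; exact pow_mem hz _
    rw [show p = l i * p' * ((l i * p')⁻¹ * p) by group, ph_mul_left (mem_Co_mul c1 c2),
      ph_center e3, mul_one, ph_mul_left c1, e1, e2, Finset.card_insert_of_notMem hi, pow_succ']

theorem pow_odd {z : G} (h : z * z = 1) {n : ℕ} (hn : Odd n) : z ^ n = z := by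
  obtain ⟨k, rfl⟩ := hn
  rw [pow_succ, pow_mul, sq, h, one_pow, one_mul]

theorem pow_even {z : G} (h : z * z = 1) {n : ℕ} (hn : Even n) : z ^ n = 1 := by
  obtain ⟨k, rfl⟩ := hn
  rw [← two_mul, pow_mul, sq, h, one_pow]

variable [Finite G] {N : ℕ}

theorem Hy.block (h : Hy G N) {x a : G} {D : Subgroup G} (d : DE N x D a) (ho : Odd (orderOf x))
    (h1 : x ≠ 1) (ha : a * a ∈ center G) (ha4 : a * a * (a * a) = 1) (hD : D ≤ Co a)
    {J : Set (G ⧸ center G)} (aJ : pr G a ∈ J) (Jc : ∀ e ∈ J, ∀ e' ∈ J, e * e' = e' * e)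
    (Jo : Odd J.ncard) (DJ : ∀ y ∈ D, ∀ e ∈ J, pr G y * e * (pr G y)⁻¹ ∈ J)
    {O : Subgroup (G ⧸ center G)} (hO : Odd (Nat.card O)) (OJ : ∀ y ∈ O, ∀ e ∈ J, y * e * y⁻¹ ∈ J)
    (DO : ∀ y ∈ D, pr G y ∈ 𝐍(O)) {b : G ⧸ center G} (Db : ∀ y ∈ D, pr G y * b = b * pr G y)
    (tr : ∀ e ∈ J, ∃ y ∈ O, y * pr G a * y⁻¹ = e ∧
      ∀ f, f * pr G a = pr G a * f → f * e = e * f → f * b = b * f → f * y = y * f) :
    ∀ e ∈ J, e = pr G a := by
  classical
  have hx := not_center_of_odd ho h1 d.inv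
  have x2 : x * x ≠ 1 := fun a => h1 (eq_one_of_odd_of_mul_self ho a)
  have hZ := d.center_le h hx
  have U0 : ∀ y, pr G y ∈ O → y ∈ Co a → y ∈ 𝐂[a] := fun y h2 h3 => by
    have e := map_pow (phHom a) ⟨y, h3⟩ (orderOf (pr G y))
    have e' : ph a (y ^ orderOf (pr G y)) = ph a y ^ orderOf (pr G y) := e
    rw [ph_center' (pr_eq_one.1 (by rw [map_pow, pow_orderOf_eq_one])),
      pow_odd (ph_sq ha h3) (odd_orderOf_of_mem hO h2)] at e'
    exact ph_eq_one.1 e'.symm
  have tr' : ∀ e ∈ J, ∃ y : G, pr G y ∈ O ∧ pr G (y * a * y⁻¹) = e ∧ ∀ f, f * pr G a = pr G a * f →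
      f * e = e * f → f * b = b * f → f * pr G y = pr G y * f := fun e he => by
    obtain ⟨y, h2, h3, h4⟩ := tr e he
    obtain ⟨y, rfl⟩ := pr_surj y
    exact ⟨y, h2, by simpa using h3, h4⟩
  choose! Y YO Ye Yf using tr'
  obtain ⟨l, hl, hl'⟩ : ∃ l : G ⧸ center G → G, (∀ e ∈ J, l e = Y e * a * (Y e)⁻¹) ∧
      ∀ e, e ∉ J → l e = 1 :=
    ⟨fun e => if e ∈ J then Y e * a * (Y e)⁻¹ else 1, fun e he => if_pos he, fun e he => if_neg he⟩
  have lU : ∀ y, pr G y ∈ O → y * a * y⁻¹ = l (pr G (y * a * y⁻¹)) := fun y hy => by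
    have h2 : pr G (y * a * y⁻¹) ∈ J := by simpa using OJ _ hy _ aJ
    have h3 := Ye _ h2
    rw [hl _ h2]
    have h4 := YO _ h2
    generalize Y (pr G (y * a * y⁻¹)) = u at h3 h4 ⊢
    have h5 := U0 (u⁻¹ * y) (by rw [map_mul, map_inv]; exact mul_mem (inv_mem h4) hy)
      (mem_Co_iff.2 (by
        simp only [map_mul, map_inv] at h3 ⊢
        rw [mul_assoc, eq_mul_of_mul_inv_eq h3.symm]; group))
    conv_rhs => rw [← U4.conj_eq_of_mem_cent1 h5]
    group
  have la : l (pr G a) = a := by simpa using (lU 1 (by simpa using one_mem O)).symm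
  have lO : ∀ y, pr G y ∈ O → ∀ e ∈ J, y * l e * y⁻¹ = l (pr G y * e * (pr G y)⁻¹) * 1 :=
    fun y hy e he => by
      have := lU (y * Y e) (by rw [map_mul]; exact mul_mem hy (YO e he))
      rw [show y * Y e * a * (y * Y e)⁻¹ = y * (Y e * a * (Y e)⁻¹) * y⁻¹ by group, map_mul, map_mul,
        Ye e he, map_inv] at this
      rw [hl e he, this, mul_one]
  have lD : ∀ y ∈ D, ∀ e ∈ J, y * l e * y⁻¹ = l (pr G y * e * (pr G y)⁻¹) * ph a y :=
    fun y hy e he => by
      have h2 := lU (y * Y e * y⁻¹) (by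
        rw [map_mul, map_mul, map_inv]; exact conj_mem_of_mem_normalizer (DO y hy) (YO e he))
      have h3 : y * (Y e * a * (Y e)⁻¹) * y⁻¹ =
          y * Y e * y⁻¹ * a * (y * Y e * y⁻¹)⁻¹ * ph a y := by
        rw [mul_assoc _ _ (ph a y), cen_comm (hD hy), ← mul_assoc _ (ph a y),
          mul_assoc _ a (ph a y), ← conj_eq_ph]
        group
      have h4 := congrArg (pr G) h3
      rw [map_mul _ _ (ph a y), pr_eq_one.2 (hD hy), mul_one, map_mul, map_mul, Ye e he,
        map_inv] at h4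
      rw [hl e he, h3, h4, ← h2]
  set W := closure (l '' J ∪ center G) with hW
  have ZW : center G ≤ W := fun z hz => subset_closure (.inr hz)
  have lW : ∀ e, l e ∈ W := fun e => by
    by_cases he : e ∈ J
    · exact subset_closure (.inl ⟨e, he, rfl⟩)
    · rw [hl' e he]; exact one_mem _
  have aW : a ∈ W := la ▸ lW _
  have lp : ∀ e ∈ J, pr G (l e) = e := fun e he => by rw [hl e he, Ye e he]
  have WCo : ∀ w ∈ W, W ≤ Co w := fun w hw => by
    refine (closure_le _).2 ?_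
    rintro _ (⟨e, he, rfl⟩ | hz)
    · refine mem_Co_comm ((closure_le (Co (l e))).2 ?_ hw)
      rintro _ (⟨e', he', rfl⟩ | hz)
      · exact mem_Co_iff.2 (by rw [lp e he, lp e' he', Jc e he e' he'])
      · exact center_le_Co _ hz
    · exact center_le_Co _ hz
  have ll : ∀ e ∈ J, l e * l e = a * a := fun e he => by rw [hl e he, sq_eq_of_conj ha]
  have Wsq : ∀ w ∈ W, w * w ∈ center G := fun w hw => by
    induction hw using closure_induction with
    | mem w hw =>
      rcases hw with ⟨e, he, rfl⟩ | hz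
      · exact (ll e he).symm ▸ ha
      · exact mul_mem hz hz
    | one => simp
    | mul u v hu hv a1 a2 =>
      refine sq_of_pr ?_
      rw [map_mul, mul_assoc, ← mul_assoc (pr G v), mem_Co_iff.1 (WCo u hu hv), mul_assoc,
        pr_sq a2, mul_one, pr_sq a1]
    | inv u _ a1 => rw [← mul_inv_rev]; exact inv_mem a1
  have W2 : IsPGroup 2 W := fun w => (two_iff.1 (h.two_of_sq_center (Wsq w w.2))).imp
    fun _ e => Subtype.ext e
  have nW : ∀ y z, z ∈ center G → (∀ e ∈ J, pr G y * e * (pr G y)⁻¹ ∈ J) →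
      (∀ e ∈ J, y * l e * y⁻¹ = l (pr G y * e * (pr G y)⁻¹) * z) → y ∈ 𝐍(W) :=
    fun y z hz _ h3 => mem_normalizer_of_conj_mem fun w hw => by
      refine (closure_le (W.comap (MulAut.conj y).toMonoidHom)).2 ?_ hw
      rintro _ (⟨e, he, rfl⟩ | hz')
      · change y * l e * y⁻¹ ∈ W
        rw [h3 e he]; exact mul_mem (lW _) (ZW hz)
      · change y * _ * y⁻¹ ∈ W
        rw [cen_conj hz']; exact ZW hz'
  have nO : ∀ y, pr G y ∈ O → y ∈ 𝐍(W) := fun y hy => nW y 1 (one_mem _) (OJ _ hy) (lO y hy)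
  have nD : D ≤ 𝐍(W) := fun y hy => nW y _ (hD hy) (DJ y hy) (lD y hy)
  have pl : ∀ e ∈ J, ∀ w ∈ W, ph (l e) w = ph a ((Y e)⁻¹ * w * Y e) := fun e he w hw => by
    rw [hl e he, ph_conj' (WCo a aW (conj_mem_of_mem_normalizer' (nO _ (YO e he)) hw))]
  have hP : ∀ w ∈ W, ∀ v ∈ W, ph w v ∈ Phi a W := fun w hw v hv => by
    induction hw using closure_induction with
    | mem w hw =>
      rcases hw with ⟨e, he, rfl⟩ | hz
      · rw [pl e he v hv]
        exact ph_mem_Phi (WCo a aW) (conj_mem_of_mem_normalizer' (nO _ (YO e he)) hv)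
      · rw [ph_center hz]; exact one_mem _
    | one => rw [ph_center (one_mem _)]; exact one_mem _
    | mul u u' hu _ a1 a2 => rw [ph_mul_left (WCo u hu hv)]; exact mul_mem a1 a2
    | inv u hu a1 => rw [ph_inv_left (WCo u hu hv)]; exact inv_mem a1
  have PZ := Phi_le_center a W
  have : (Phi a W).Normal := ⟨fun z hz g => by rwa [cen_conj (PZ hz)]⟩
  set q := QuotientGroup.mk' (Phi a W) with hq
  have qk : q.ker = Phi a W := QuotientGroup.ker_mk' _
  have q1 : ∀ z ∈ Phi a W, q z = 1 := fun z hz => by rwa [← qk] at hz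
  have qz : ∀ z ∈ center G, q z ∈ center _ := fun z hz => mem_center_iff.2 fun g => by
    obtain ⟨g, rfl⟩ := QuotientGroup.mk'_surjective _ g
    rw [← map_mul, ← map_mul, cen_comm hz]
  have qp : ∀ p y : G, q y * q p * (q y)⁻¹ = q p → ph p y ∈ Phi a W := fun p y e => by
    rw [← qk, MonoidHom.mem_ker, ph, map_mul, map_mul, map_mul, map_inv, map_inv, e, inv_mul_cancel]
  have hc : ∀ i j, Commute (q (l i)) (q (l j)) := fun i j => by
    have e := congrArg q (conj_eq_ph (l j) (l i))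
    rw [map_mul _ (l j), q1 _ (hP _ (lW j) _ (lW i)), mul_one, map_mul, map_mul, map_inv] at e
    exact mul_inv_eq_iff_eq_mul.1 e
  set F := (Set.toFinite J).toFinset with hF
  have mF : ∀ e, e ∈ F ↔ e ∈ J := fun e => Set.Finite.mem_toFinset _
  have Fo : Odd F.card := by rwa [Set.ncard_eq_toFinset_card J] at Jo
  have aF := (mF _).2 aJ
  have Fe : Even (F.erase (pr G a)).card := by
    rw [Finset.card_erase_of_mem aF]
    exact Nat.Odd.sub_odd Fo odd_one
  have inj : ∀ g : G ⧸ center G, Function.Injective fun e => g * e * g⁻¹ := fun g =>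
    (MulAut.conj g).injective
  have im : ∀ (g : G ⧸ center G) (E : Finset (G ⧸ center G)), (∀ e ∈ E, g * e * g⁻¹ ∈ E) →
      E.image (fun e => g * e * g⁻¹) = E := fun g E hE =>
    Finset.eq_of_subset_of_card_le (Finset.image_subset_iff.2 hE)
      (Finset.card_image_of_injective _ (inj g)).ge
  obtain ⟨p, pW, hp⟩ := Pq_mem hc (H := W.map q) (fun i => mem_map_of_mem q (lW i))
    (F.erase (pr G a))
  have hr : q (a * p) = Pq hc F := by
    conv_rhs => rw [← Finset.insert_erase aF, Pq_insert hc (Finset.notMem_erase _ _), la]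
    rw [map_mul, hp]
  have rW : a * p ∈ W := mul_mem aW pW
  have rO : ∀ y, pr G y ∈ O → y ∈ Co (a * p) := fun y hy => by
    refine PZ (qp _ _ ?_)
    rw [hr, Pq_conj hc (one_mem _) (inj (pr G y)) F fun e he => by
      simpa using congrArg q (lO y hy e ((mF e).1 he)),
      im _ F fun e he => (mF _).2 (OJ _ hy e ((mF e).1 he)), one_pow, mul_one]
  have key : ∀ f ∈ W, (∀ e ∈ J, Y e ∈ Co f) →
      (∀ e ∈ J, ph (l e) f = ph a f) ∧ ph (a * p) f = ph a f := fun f hf h2 => by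
    have h3 : ∀ e ∈ J, ph (l e) f = ph a f := fun e he => by
      have h4 := conj_eq_ph f (Y e)⁻¹
      have h5 : ph f (Y e)⁻¹ ∈ center G := (Co f).inv_mem (h2 e he)
      rw [inv_inv] at h4
      rw [pl e he f hf, h4, ph_mul _ (center_le_Co a h5), ph_center' h5, mul_one]
    refine ⟨h3, ?_⟩
    rw [Pq_ph q (qk.le.trans PZ) hc (WCo a aW hf) F (fun e he => h3 e ((mF e).1 he)) _ hr,
      pow_odd (ph_sq ha (WCo a aW hf)) Fo]
  have rC : W ≤ 𝐂[a * p] := by
    obtain ⟨h2, h3⟩ := key _ rW fun e he => rO _ (YO e he)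
    rw [ph_eq_one.2 (self_mem_cent1 _)] at h3
    refine (closure_le _).2 ?_
    rintro _ (⟨e, he, rfl⟩ | hz)
    · exact mem_cent1_comm.1 (ph_eq_one.1 ((h2 e he).trans h3.symm))
    · exact mem_cent1.2 (cen_comm hz _).symm
  have DY : ∀ f ∈ W, f ∈ D → ∀ e ∈ J, Y e ∈ Co f := fun f h2 h3 e he =>
    mem_Co_iff.2 (Yf e he _ (mem_Co_iff.1 (hD h3))
      (by simpa [lp e he] using mem_Co_iff.1 (WCo _ (lW e) h2)) (Db f h3)).symm
  have pa : ∀ w ∈ W, ph p w = (ph a w)⁻¹ := fun w hw => by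
    have := ph_eq_one.2 (rC hw)
    rw [ph_mul_left (WCo a aW hw)] at this
    exact eq_inv_of_mul_eq_one_right this
  have pD : ∀ y ∈ D, ph p y ∈ Phi a W := fun y hy => by
    refine qp _ _ ?_
    rw [hp, Pq_conj hc (qz _ (hD hy)) (inj (pr G y)) _ fun e he => by
      simpa using congrArg q (lD y hy e ((mF e).1 (Finset.mem_of_mem_erase he))),
      im _ _ fun e he => ?_, ← map_pow, pow_even (ph_sq ha (hD hy)) Fe, map_one, mul_one]
    refine Finset.mem_erase.2 ⟨fun e1 => (Finset.mem_erase.1 he).1 (inj (pr G y) ?_),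
      (mF _).2 (DJ y hy e ((mF e).1 (Finset.mem_of_mem_erase he)))⟩
    change _ = pr G y * pr G a * (pr G y)⁻¹
    rw [mem_Co_iff.1 (hD hy), mul_inv_cancel_right]
    exact e1
  have pp : p * p ∈ Phi a W := by
    rw [← qk, MonoidHom.mem_ker, map_mul, hp, Pq_sq hc (z := q (a * a)) _ fun e he => by
      rw [← map_mul, ll e ((mF e).1 (Finset.mem_of_mem_erase he))], ← map_pow, pow_even ha4 Fe,
      map_one]
  intro e he
  by_contra hne
  have p1 : p ∉ D := fun h2 => hne (by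
    have h3 := mem_Co_mul (rO _ (YO e he)) (mem_Co_inv (DY p pW h2 e he))
    rw [mul_inv_cancel_right] at h3
    rw [← Ye e he, map_mul, map_mul, mem_Co_iff.1 h3, map_inv, mul_inv_cancel_right])
  obtain ⟨w, hw, -, e1⟩ := mem_Phi pp
  have h2 := h.card_le_Phi (r := p) ⟨w, inv_of_ph (by rw [pa w hw, e1])⟩ (fun e => p1 (hZ e))
    (isPGroup_sup' nD W2 d.two) PZ fun y hy => by
      obtain ⟨u, hu, v, hv, rfl⟩ := (mem_sup_iff_of_le_normalizer' nD).1 hy
      rw [ph_mul _ (PZ (pD v hv))]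
      exact mul_mem (hP p pW u hu) (pD v hv)
  have h3 := card_sup_mul_card_inf nD
  have h4 := card_Phi (WCo a aW)
  have h5 := two_mul_le (H := D ⊓ W) (K := W ⊓ 𝐂[a]) (fun f hf => mem_inf.2 ⟨hf.2, ph_eq_one.1
    ((key f hf.2 (DY f hf.2 hf.1)).2.symm.trans (ph_eq_one.2 (rC hf.2)))⟩)
    (mem_inf.2 ⟨aW, self_mem_cent1 a⟩) fun e => d.notMem x2 e.1
  rw [sup_comm, d.card, h4] at h3
  have h6 : 0 < N := d.card ▸ Nat.card_pos
  have h7 := Nat.card_pos (α := Phi a W)
  have h8 := Nat.card_pos (α := ↥(D ⊓ W))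
  have h9 := Nat.mul_le_mul_right (Nat.card ↥(D ⊓ W)) h2
  rw [h3] at h9
  have := Nat.mul_le_mul_left (N * Nat.card (Phi a W)) h5
  have := Nat.mul_pos (Nat.mul_pos h6 h7) h8
  nlinarith

end CfsgLib.RC
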