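import Cfsg.Agent.Lib.GW.Basic

/-! Real classes with equal `2`-parts: passing to `G / O(G)`. -/

set_option autoImplicit false

namespace CfsgLib.RC

open Subgroup Cfsg MulAction

universe u

theorem relIndex_dvd_index {H : Type*} [Group H] [Finite H] (K N : Subgroup H) [N.Normal] :
    K.relIndex N ∣ K.index := by
  obtain ⟨s, hs⟩ := relIndex_dvd_index_of_normal N K
  have h1 := relIndex_mul_index (inf_le_left : K ⊓ N ≤ K)
  have h2 := relIndex_mul_index (inf_le_right : K ⊓ N ≤ N)
  rw [inf_relIndex_left] at h1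
  rw [inf_relIndex_right, hs, ← h1] at h2
  have h3 : 0 < N.relIndex K := Nat.pos_of_ne_zero index_ne_zero_of_finite
  exact ⟨s, Nat.eq_of_mul_eq_mul_left h3 (by rw [← h2]; ring)⟩

theorem exists_real_lift {G X : Type*} [Group G] [Finite G] [Group X] (π : G →* X)
    (hπ : Function.Surjective π) (hN : Odd (Nat.card π.ker)) {x : X} (hx : IsConj x x⁻¹) :
    ∃ y : G, π y = x ∧ IsConj y y⁻¹ ∧
      Odd ((centralizer {y}).relIndex ((centralizer {x}).comap π)) := by
  let H : Subgroup (G × ℤˣ) :=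
    { carrier := {p | π p.1 * x * (π p.1)⁻¹ = x ^ (p.2 : ℤ)}
      one_mem' := by simp
      mul_mem' := fun {p q} hp hq => by
        simp only [Set.mem_ofPred_eq, Prod.fst_mul, Prod.snd_mul, map_mul, Units.val_mul] at hp hq ⊢
        rw [zpow_mul, ← hp, conj_zpow, ← hq]
        group
      inv_mem' := fun {p} hp => by
        simp only [Set.mem_ofPred_eq, Prod.fst_inv, Prod.snd_inv, map_inv, inv_inv] at hp ⊢
        rcases Int.units_eq_one_or p.2 with e | e
        · rw [e] at hp ⊢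
          simp only [Units.val_one, zpow_one, inv_one] at hp ⊢
          nth_rewrite 1 [← hp]
          group
        · rw [e] at hp ⊢
          simp only [Units.val_neg, Units.val_one, zpow_neg, zpow_one, inv_neg, inv_one] at hp ⊢
          rw [← inv_inj, inv_inv, mul_inv_rev, mul_inv_rev, ← hp]
          group }
  let Ω := {y : G // π y = x}
  let _ : MulAction H Ω :=
    { smul := fun p y => ⟨(p.1.1 * y * p.1.1⁻¹) ^ (p.1.2 : ℤ), by
        have hp : π p.1.1 * x * (π p.1.1)⁻¹ = x ^ (p.1.2 : ℤ) := p.2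
        rw [map_zpow, map_mul, map_mul, map_inv, y.2, hp, ← zpow_mul, ← Units.val_mul,
          Int.units_mul_self, Units.val_one, zpow_one]⟩
      one_smul := fun y => Subtype.ext (by
        show ((1 : G) * y * (1 : G)⁻¹) ^ ((1 : ℤˣ) : ℤ) = y
        simp)
      mul_smul := fun p q y => Subtype.ext (by
        show (p.1.1 * q.1.1 * y * (p.1.1 * q.1.1)⁻¹) ^ ((p.1.2 * q.1.2 : ℤˣ) : ℤ) =
          (p.1.1 * (q.1.1 * y * q.1.1⁻¹) ^ (q.1.2 : ℤ) * p.1.1⁻¹) ^ (p.1.2 : ℤ)
        rw [← conj_zpow (a := p.1.1), ← zpow_mul, Units.val_mul, mul_comm (p.1.2 : ℤ)]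
        congr 1
        group) }
  have hs : ∀ (p : H) (y : Ω), (p • y : Ω).1 = (p.1.1 * y * p.1.1⁻¹) ^ (p.1.2 : ℤ) := fun _ _ => rfl
  have hΩ : Nat.card Ω = Nat.card π.ker := by
    obtain ⟨x, rfl⟩ := hπ x
    exact Nat.card_congr (MonoidHom.fiberEquivKer π x)
  obtain ⟨T⟩ : Nonempty (Sylow 2 H) := inferInstance
  obtain ⟨y, hy⟩ := T.2.nonempty_fixed_point_of_prime_not_dvd_card Ω
    (by rw [hΩ]; exact hN.not_two_dvd_nat)
  have hK : ¬ 2 ∣ (stabilizer H y).index := fun h => T.not_dvd_index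
    (h.trans (index_dvd_of_le fun t ht => hy ⟨t, ht⟩))
  let σ : H →* ℤˣ := (MonoidHom.snd G ℤˣ).comp H.subtype
  refine ⟨y, y.2, ?_, ?_⟩
  · by_contra h
    have h1 : stabilizer H y ≤ σ.ker := fun p hp => (Int.units_eq_one_or p.1.2).resolve_right
      fun e => h (isConj_iff.2 ⟨p.1.1, by
        have := (hs p y).symm.trans (congrArg Subtype.val hp)
        rw [e] at this
        simp only [Units.val_neg, Units.val_one, zpow_neg, zpow_one] at this
        exact inv_eq_iff_eq_inv.1 this⟩)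
    refine hK (Dvd.dvd.trans ?_ (index_dvd_of_le h1))
    obtain ⟨t, ht⟩ := isConj_iff.1 hx
    obtain ⟨t, rfl⟩ := hπ t
    rw [index_ker]
    have : orderOf (-1 : ℤˣ) = 2 := orderOf_eq_prime (by simp) (by decide)
    exact this ▸ Subgroup.orderOf_dvd_natCard σ.range ⟨⟨(t, -1), by simpa [H] using ht⟩, rfl⟩
  · let j : (centralizer {x}).comap π →* H := MonoidHom.codRestrict
      ((MonoidHom.inl G ℤˣ).comp (Subgroup.subtype _)) _ fun d => by
        have e : π d * x = x * π d := mem_centralizer_singleton_iff.1 d.2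
        show π d * x * (π d)⁻¹ = x ^ ((1 : ℤˣ) : ℤ)
        simp [e]
    have h1 : j.range = σ.ker := by
      ext p
      refine ⟨by rintro ⟨d, rfl⟩; rfl, fun hp => ⟨⟨p.1.1, mem_centralizer_singleton_iff.2 ?_⟩,
        Subtype.ext (Prod.ext rfl hp.symm)⟩⟩
      have e : π p.1.1 * x * (π p.1.1)⁻¹ = x ^ (p.1.2 : ℤ) := p.2
      rw [show p.1.2 = 1 from hp] at e
      simpa [mul_inv_eq_iff_eq_mul] using e
    have h2 : (centralizer {y.1}).subgroupOf ((centralizer {x}).comap π) =
        (stabilizer H y).comap j := by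
      ext d
      rw [mem_subgroupOf, mem_centralizer_singleton_iff, mem_comap, mem_stabilizer_iff,
        Subtype.ext_iff, hs]
      show _ ↔ ((d : G) * y * (d : G)⁻¹) ^ ((1 : ℤˣ) : ℤ) = y
      simp [mul_inv_eq_iff_eq_mul]
    rw [relIndex, h2, index_comap, h1, ← Nat.not_even_iff_odd, even_iff_two_dvd]
    exact fun h => hK (h.trans (relIndex_dvd_index _ _))

theorem red_hom {G X : Type*} [Group G] [Finite G] [Group X] (a : ℕ)
    (h : ∀ x : G, IsConj x x⁻¹ → x ∉ center G →
      ((centralizer ({x} : Set G)).index).factorization 2 = a) (π : G →* X)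
    (hπ : Function.Surjective π) (hN : Odd (Nat.card π.ker)) :
    ∀ x : X, IsConj x x⁻¹ → x ∉ center X →
      ((centralizer ({x} : Set X)).index).factorization 2 = a := by
  intro x hx hZ
  obtain ⟨y, rfl, h1, h2⟩ := exists_real_lift π hπ hN hx
  have h3 : centralizer {y} ≤ (centralizer {π y}).comap π := fun g hg =>
    mem_centralizer_singleton_iff.2 (by
      rw [← map_mul, ← map_mul, mem_centralizer_singleton_iff.1 hg])
  rw [← h y h1 fun e => hZ (mem_center_iff.2 fun g => by
      obtain ⟨g, rfl⟩ := hπ g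
      rw [← map_mul, ← map_mul, mem_center_iff.1 e g]),
    ← relIndex_mul_index h3, Nat.factorization_mul h2.pos.ne' index_ne_zero_of_finite,
    index_comap_of_surjective _ hπ, Finsupp.add_apply,
    Nat.factorization_eq_zero_of_not_dvd h2.not_two_dvd_nat, zero_add]

theorem red {G : Type*} [Group G] [Finite G] (a : ℕ)
    (h : ∀ x : G, IsConj x x⁻¹ → x ∉ center G →
      ((centralizer ({x} : Set G)).index).factorization 2 = a) (N : Subgroup G) [N.Normal]
    (hN : Odd (Nat.card N)) :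
    ∀ x : G ⧸ N, IsConj x x⁻¹ → x ∉ center (G ⧸ N) →
      ((centralizer ({x} : Set (G ⧸ N))).index).factorization 2 = a :=
  red_hom a h (QuotientGroup.mk' N) (QuotientGroup.mk'_surjective N)
    (by rwa [QuotientGroup.ker_mk'])

theorem final (core : ∀ (X : Type u) [Group X] [Finite X] (a : ℕ),
      (∀ x : X, IsConj x x⁻¹ → x ∉ center X →
        ((centralizer ({x} : Set X)).index).factorization 2 = a) →
      GW.Od (⊤ : Subgroup X) = ⊥ → Odd (pCore 2 X).index)
    {G : Type u} [Group G] [Finite G] (a : ℕ)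
    (h : ∀ x : G, IsConj x x⁻¹ → x ∉ center G →
      ((centralizer ({x} : Set G)).index).factorization 2 = a) :
    ∃ N K : Subgroup G, N.Normal ∧ K.Normal ∧ N ≤ K ∧ Odd (Nat.card N) ∧ Odd K.index ∧
      ∃ j : ℕ, N.relIndex K = 2 ^ j := by
  have hN : Odd (Nat.card (piCore {2}ᶜ G)) := by
    rw [← H1.piCoreOf_top]; exact GW.odd_Od _
  have h1 := core _ a (red a h _ hN) (by rw [GW.Od, H1.piCoreOf_top, piCore_quotient_piCore])
  refine ⟨piCore {2}ᶜ G, (pCore 2 _).comap (QuotientGroup.mk' (piCore {2}ᶜ G)), inferInstance,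
    inferInstance, QuotientGroup.le_comap_mk' _ _, hN, ?_, ?_⟩
  · rwa [index_comap_of_surjective _ (QuotientGroup.mk'_surjective _)]
  · obtain ⟨j, hj⟩ := IsPGroup.iff_card.1 (pCore_isPGroup (G := G ⧸ piCore {2}ᶜ G) 2)
    refine ⟨j, ?_⟩
    nth_rewrite 1 [← QuotientGroup.ker_mk' (piCore {2}ᶜ G)]
    rw [relIndex_ker, map_comap_eq_self_of_surjective (QuotientGroup.mk'_surjective _), hj]

end CfsgLib.RC
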