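import Cfsg.Agent.Lib.RC.Big
import Cfsg.Agent.Lib.RC.Prod
import Cfsg.Agent.Lib.RC.One
import Cfsg.Agent.Lib.RC.Red

/-!
# Real classes with equal `2`-parts: the main theorem
-/

set_option autoImplicit false

namespace CfsgLib.RC

open Subgroup Cfsg CfsgLib.FT CfsgLib.FT.BGN CfsgLib.GW
open CfsgLib.FT.U4 (mem_cent1 mem_cent1' mem_cent mem_cent1_comm self_mem_cent1 cent1_conj
  orderOf_conj cent_le_cent1)

universe u

theorem two_closure {X : Type*} [Group X] {I : Set X} (h1 : ∀ i ∈ I, i * i = 1)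
    (h2 : ∀ i ∈ I, ∀ j ∈ I, i * j = j * i) : IsPGroup 2 (closure I) := by
  have c1 : ∀ u ∈ closure I, ∀ v ∈ closure I, u * v = v * u := fun u hu v hv =>
    mem_cent1.1 ((closure_le 𝐂[v]).2 (fun i hi => mem_cent1'.2 (mem_cent1.1
      ((closure_le 𝐂[i]).2 (fun j hj => mem_cent1.2 (h2 j hj i hi)) hv))) hu)
  have c2 : ∀ u ∈ closure I, u * u = 1 := fun u hu => by
    induction hu using closure_induction with
    | mem i hi => exact h1 i hi
    | one => simp
    | mul u v hu hv a1 a2 =>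
      rw [mul_assoc, ← mul_assoc v, c1 v hv u hu, mul_assoc, a2, mul_one, a1]
    | inv u _ a1 => rw [← mul_inv_rev, a1, inv_one]
  exact fun u => ⟨1, Subtype.ext (by simpa [sq] using c2 u u.2)⟩

variable {G : Type*} [Group G] [Finite G] {N : ℕ}

theorem Bg.false (h : Bg G N) (hn : ¬ Odd (pCore 2 G).index) : False := by
  have := Fact.mk Nat.prime_two
  obtain ⟨s, s2, sr, -, sQ⟩ := h.exists_real hn
  have hs := h.sq_center sr s2
  have s1 : s ∉ center G := fun e => sQ (le_pCore h.two_center e)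
  have ot := h.ot hs s1
  have two_comap : ∀ T : Subgroup (G ⧸ center G), IsPGroup 2 T → IsPGroup 2 (T.comap (pr G)) :=
    fun T hT => hT.comap_of_ker_isPGroup _ (by
      rw [QuotientGroup.ker_mk']; exact h.two_center)
  obtain ⟨y, y1, y2, y3⟩ := H5.exists_inverted_of_notMem_pCore (t := pr G s)
    (by rw [sq]; exact pr_sq hs) fun e => sQ (le_pCore (two_comap _ (pCore_isPGroup 2)) e)
  obtain ⟨a, b, I, m⟩ := exists_mc (s := pr G s) (a := pr G s) (b := y * pr G s * y⁻¹) (by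
    refine ⟨IsConj.refl _, isConj_conj (IsConj.refl _) y, fun e => ?_, by simp, by simp, by simp,
      by simp⟩
    have yo := y1.odd_of_ne_two y2
    have e1 : y * y * (y * y) = 1 := by
      have e2 : y * pr G s * y⁻¹ = y * y * pr G s := by
        rw [← y3, show y * pr G s * (pr G s * y * (pr G s)⁻¹) =
          y * (pr G s * pr G s) * y * (pr G s)⁻¹ by group, pr_sq hs, mul_one,
          inv_eq_of_mul_eq_one_left (pr_sq hs)]
      rw [e2, mul_assoc (y * y), pr_sq hs, mul_one, ← mul_assoc] at e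
      have e3 := inv_of_mem_zpowers y3 (mul_mem (mem_zpowers y) (mem_zpowers y))
      rw [inv_eq_of_mul_eq_one_left (pr_sq hs), e] at e3
      exact mul_eq_one_iff_eq_inv.2 e3
    have e2 := eq_one_of_odd_of_mul_self yo (eq_one_of_odd_of_mul_self
      (yo.of_dvd_nat (orderOf_dvd_of_mem_zpowers (mul_mem (mem_zpowers y) (mem_zpowers y)))) e1)
    rw [e2, orderOf_one] at y1
    exact Nat.not_prime_one y1)
  clear y1 y2 y3 y
  obtain ⟨g, rfl⟩ := lift_conj m.ha
  obtain ⟨k, rfl⟩ := lift_conj m.hb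
  have ea := sq_eq_of_conj hs g
  have ha : g * s * g⁻¹ * (g * s * g⁻¹) ∈ center G := ea.symm ▸ hs
  obtain ⟨x, ho, x1, ex, ax⟩ := h.pair (ea.trans (sq_eq_of_conj hs k).symm) ha m.ne
  have ar := sr.conj g
  have a1 : g * s * g⁻¹ ∉ center G := fun e => s1 (conj_mem_center.1 e)
  have ac : ∀ u, IsConj (pr G s) (pr G (u * (g * s * g⁻¹) * u⁻¹)) := fun u => by
    simpa using isConj_conj m.ha (pr G u)
  generalize g * s * g⁻¹ = a at *
  generalize pr G (k * s * k⁻¹) = b at *
  have hx := not_center_of_odd ho x1 ax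
  have st := h.star ho x1
  have cx : ∀ u : G, pr G u ∈ I → u ∈ 𝐂[x] := fun u hu => h.cent_of_pr ho (by
    rw [ex, ← mul_assoc, m.ca _ hu, mul_assoc, m.cb _ hu, mul_assoc])
  have hT := two_comap _ (two_closure (I := insert (pr G a) I) (by
    rintro i (rfl | hi)
    exacts [pr_sq ha, sq_of_isConj ot.ord (m.sub i hi)]) (by
    rintro i (rfl | hi) j (rfl | hj)
    exacts [rfl, (m.ca j hj).symm, m.ca i hi, m.comm i hi j hj]))
  obtain ⟨D, d, hD⟩ := h.exists_DE hx ax hT (fun u hu => by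
    have h2 : pr G u ∈ Cs (pr G x) := (closure_le (Cs (pr G x))).2 (by
      rintro i (rfl | hi)
      · exact mem_Cs.2 (.inr (by simpa using congrArg (pr G) ax))
      · obtain ⟨v, rfl⟩ := pr_surj i
        exact cent_le_Cs _ (mem_cent1.2 (by simpa using congrArg (pr G) (mem_cent1.1 (cx v hi)))))
      hu
    exact mem_Cs.2 ((mem_Cs.1 h2).imp (fun e => h.cent_of_pr ho (mem_cent1.1 e))
      (h.inv_of_pr ho))) (subset_closure (Set.mem_insert _ _))
  have hZ := d.center_le h.toHy hx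
  have ID : ∀ u : G, pr G u ∈ I → u ∈ D := fun u hu =>
    hD (mem_inf.2 ⟨subset_closure (Set.mem_insert_of_mem _ hu), cx u hu⟩)
  have Da := st.le_Co d ha
  have Db : ∀ u ∈ D, pr G u * b = b * pr G u := fun u hu => by
    have e1 : pr G u * pr G x = pr G x * pr G u := by
      simpa using congrArg (pr G) (mem_cent1.1 (d.le hu))
    rw [ex, ← mul_assoc, mem_Co_iff.1 (Da hu), mul_assoc, mul_assoc] at e1
    exact mul_left_cancel e1
  have DI : ∀ u ∈ D, pr G u ∈ centralizer I := fun u hu i hi => by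
    obtain ⟨v, rfl⟩ := pr_surj i
    exact (mem_Co_iff.1 (st.le_Co_of_sq d ha (ID v hi)
      (sq_of_pr (sq_of_isConj ot.ord (m.sub _ hi))) hu)).symm
  have DJ : ∀ u ∈ D, ∀ e ∈ Jc (pr G s) I (pr G a), pr G u * e * (pr G u)⁻¹ ∈ Jc (pr G s) I (pr G a) :=
    fun u hu e he => m.J_map (DI u hu) m.aK m.aK m.aJ
      (by rw [mem_Co_iff.1 (Da hu), mul_inv_cancel_right]; exact m.aJ) he
  have Jo : Odd (Jc (pr G s) I (pr G a)).ncard := by
    have h2 := ncard_modEq_conj (d.two.map (pr G)) (Jc (pr G s) I (pr G a)) (by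
      rintro _ ⟨u, hu, rfl⟩; exact DJ u hu)
    have h3 : {e | e ∈ Jc (pr G s) I (pr G a) ∧ ∀ g ∈ D.map (pr G), g * e * g⁻¹ = e} =
        {pr G a} := by
      refine Set.eq_singleton_iff_unique_mem.2 ⟨⟨m.aJ, ?_⟩, fun e he => ?_⟩
      · rintro _ ⟨u, hu, rfl⟩
        rw [mem_Co_iff.1 (Da hu), mul_inv_cancel_right]
      obtain ⟨v, rfl⟩ := pr_surj e
      have v2 := sq_of_pr (sq_of_isConj ot.ord he.1.1.1)
      rcases d.four h.toHy ho x1 (y := v) (mem_normalizer_of_conj_mem fun u hu => by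
          rw [conj_eq_ph]
          exact mul_mem hu (hZ (mem_Co_iff.2
            (mul_inv_eq_iff_eq_mul.1 (he.2 _ (mem_map_of_mem _ hu))).symm))) (hZ v2)
        (hZ (pr_eq_one.1 (by
          rw [map_mul, map_mul, map_mul, he.1.2, map_inv, map_inv]; group))) with e | e
      · exact (m.J_ne he.1 m.bJ (Db v e)).elim
      · exact st.nc_conj d ha e (by rw [mul_inv_cancel]; exact one_mem D) v2 hZ
          (he.1.1.1.symm.trans m.ha)
    rw [h3, Set.ncard_singleton] at h2
    exact Nat.odd_iff.2 h2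
  obtain ⟨O, hO, OJ, DO, tr⟩ := m.swap ot Jo
  obtain ⟨t, ht⟩ := ar
  have hJ := h.block d ho x1 ha (by
      have := ph_sq ha (mem_Co_of_inv ha ht)
      rw [ph_of_inv ht, ← mul_inv_rev, inv_eq_one] at this
      exact this) Da m.aJ
    (fun e he e' he' => m.J_comm m.aK he he') Jo DJ hO OJ
    (fun u hu => DO _ (DI u hu) (mem_Co_iff.1 (Da hu)) (Db u hu)) Db tr
  obtain ⟨S, h2, h3⟩ := IsSylowIn.exists_ge (H := ⊤) d.two_E le_top
  obtain ⟨P, h4⟩ := IsSylowIn.exists_in (p := 2) (Co a)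
  refine h.fl ho x1 st d ha h3 h2 (fun u hu => ?_) (h.max ⟨t, ht⟩ a1 ha h4) h4.le
  have cm : ∀ v ∈ S, IsConj (pr G s) (pr G v) →
      pr G v * pr G (u * a * u⁻¹) = pr G (u * a * u⁻¹) * pr G v := fun v hv hc => by
    refine (ot.f1 _ _ hc (ac u)).elim id fun e => ?_
    have e1 := Two.eq_one (two_of_mem (h3.isPGroup.map (pr G))
      (mul_mem (mem_map_of_mem _ hv) (mem_map_of_mem _ hu))) e
    rw [eq_inv_of_mul_eq_one_left e1]; group
  by_cases e : pr G (u * a * u⁻¹) ∈ I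
  · exact d.mem_E.2 (.inl (ID _ e))
  · refine d.mem_E.2 (.inr (hZ (pr_eq.1 (hJ _ ⟨⟨ac u, e, fun i hi => ?_⟩,
      (cm a (h2 (mem_sup_right (mem_zpowers a))) m.ha).symm⟩))))
    obtain ⟨v, rfl⟩ := pr_surj i
    exact cm v (h2 (mem_sup_left (ID v hi))) (m.sub _ hi)

theorem core (X : Type u) [Group X] [Finite X] (a : ℕ)
    (h : ∀ x : X, IsConj x x⁻¹ → x ∉ center X →
      ((centralizer ({x} : Set X)).index).factorization 2 = a)
    (hO : Od (⊤ : Subgroup X) = ⊥) : Odd (pCore 2 X).index := by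
  have := Fact.mk Nat.prime_two
  by_contra hn
  have key : ∀ g : X, Rl g → g ∉ center X →
      (Nat.card X).factorization 2 = (Nat.card 𝐂[g]).factorization 2 + a := fun g hr hz => by
    rw [← h g (isConj_iff.2 hr) hz, ← card_mul_index 𝐂[g],
      Nat.factorization_mul Nat.card_pos.ne' index_ne_zero_of_finite]
    rfl
  have hy : Hy X (2 ^ ((Nat.card X).factorization 2 - a)) := ⟨hO, fun g hr hz D hD => by
    rw [hD.card_eq_ordProj, key g hr hz, Nat.add_sub_cancel]⟩
  by_cases hb : ∀ S : Subgroup X, IsSylowIn 2 S ⊤ →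
      2 * 2 ^ ((Nat.card X).factorization 2 - a) < Nat.card S
  · exact Bg.false ⟨hy, hb⟩ hn
  · push Not at hb
    obtain ⟨S, h1, h2⟩ := hb
    exact one hy (fun T hT => (h1.card_le hT le_top).trans h2) hn

end CfsgLib.RC
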