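import Cfsg.Agent.Lib.RC.Basic

/-!
# Real classes with equal `2`-parts: the facts used in the endgame of the case `a = 1`
-/

set_option autoImplicit false

namespace CfsgLib.RC

open Subgroup Cfsg CfsgLib.FT CfsgLib.FT.BGN CfsgLib.GW

/-- The local facts in the case that the Sylow subgroups have order `2 N`. -/
structure C1 (G : Type*) [Group G] (N : ℕ) : Prop where
  hy : Hy G N
  hS : ∀ T : Subgroup G, IsPGroup 2 T → Nat.card T ≤ 2 * N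
  setup : ∀ x e t : G, Odd (orderOf x) → x ≠ 1 → Two e → e ∉ center G → e ∈ 𝐂[x] →
    t * x * t⁻¹ = x⁻¹ → t * e * t⁻¹ = e⁻¹ → Two t → ∃ D, DE N x D t ∧ DE N e D t ∧ e ∈ D
  r3 : ∀ x e t c : G, Odd (orderOf x) → x ≠ 1 → Two e → e ∉ center G → e ∈ 𝐂[x] →
    t * x * t⁻¹ = x⁻¹ → t * e * t⁻¹ = e⁻¹ → c ∈ 𝐂[e] → c * x * c⁻¹ = x⁻¹ → False
  phi : ∀ r : G, Rl r → r ∉ center G → r * r ∈ center G → ∀ y ∈ Co r, ∀ y' ∈ Co r,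
    ph r y ≠ 1 → ph r y' = 1 ∨ ph r y' = ph r y
  s6 : ∀ (x t : G) (D M : Subgroup G), Odd (orderOf x) → x ≠ 1 → DE N x D t →
    D ⊔ zpowers t ≤ 𝐍(M) → M ≤ D → M ≤ 𝐂[t] → ∀ r ∈ M, Rl r → r ∈ center G
  s0 : ∀ r ∈ pCore 2 G, Rl r → r ∈ center G
  s0' : ∀ y : G, Odd (orderOf y) → y ∈ 𝐂(pCore 2 G)
  s2 : ∀ (x w : G) (T : Subgroup G), Odd (orderOf x) → x ≠ 1 → w * x * w⁻¹ = x⁻¹ →
    w * w ∈ center G → IsPGroup 2 T → T ≤ Cs x → w ∈ T → ∃ D ζ, DE N x D w ∧ T ⊓ 𝐂[x] ≤ D ∧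
      ζ ∈ D ∧ ζ ∈ 𝐂(D) ∧ w * ζ * w⁻¹ = ζ⁻¹ ∧ ζ * ζ ∈ center G ∧ ζ * ζ ≠ 1
  bs : ∀ w : G, w ∉ pCore 2 G → w * w ∈ center G →
    ∃ x, Odd (orderOf x) ∧ x ≠ 1 ∧ w * x * w⁻¹ = x⁻¹

end CfsgLib.RC
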