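import Cfsg.Agent.Lib.RC.Gen
import Cfsg.Agent.Lib.RC.OneDefs

/-!
# Real classes with equal `2`-parts: the local facts in the case `a = 1`
-/

set_option autoImplicit false

namespace CfsgLib.RC

open Subgroup Cfsg CfsgLib.FT CfsgLib.FT.BGN CfsgLib.GW
open CfsgLib.FT.U4 (mem_cent1 mem_cent1' mem_cent mem_cent1_comm self_mem_cent1 cent1_conj
  orderOf_conj cent_le_cent1)

variable {G : Type*} [Group G] [Finite G] {N : ℕ}

theorem eq_of_card_le_two {H : Subgroup G} (h : Nat.card H ≤ 2) {a b : G} (ha : a ∈ H)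
    (hb : b ∈ H) (h1 : a ≠ 1) : b = 1 ∨ b = a := by
  by_contra h2
  rw [not_or] at h2
  have h3 := Set.ncard_le_ncard (s := {1, a, b}) (t := (H : Set G))
    (by rintro _ (rfl | rfl | rfl); exacts [one_mem H, ha, hb])
  rw [Set.ncard_eq_three.2 ⟨1, a, b, h1.symm, Ne.symm h2.1, Ne.symm h2.2, rfl⟩,
    ← Nat.card_coe_set_eq] at h3
  change 3 ≤ Nat.card H at h3
  omega

theorem DE.pos {x t : G} {D : Subgroup G} (d : DE N x D t) : 0 < N := d.card ▸ Nat.card_pos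

theorem DE.inf_cent {x t : G} {D : Subgroup G} (d : DE N x D t) (h2 : x * x ≠ 1) {y : G}
    (hy : y ∈ D ⊔ zpowers t) (hc : y ∈ 𝐂[x]) : y ∈ D :=
  (d.mem_E.1 hy).resolve_right fun e => h2 (sq_of_inv_of_comm (d.inv_of e) (mem_cent1.1 hc))

theorem DE.E_le_Cs {x t : G} {D : Subgroup G} (d : DE N x D t) : D ⊔ zpowers t ≤ Cs x :=
  sup_le (d.le.trans (cent_le_Cs x)) (zpowers_le.2 (mem_Cs.2 (.inr d.inv)))

theorem sq_ne_of_odd {x : G} (ho : Odd (orderOf x)) (h1 : x ≠ 1) : x * x ≠ 1 :=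
  fun e => h1 (eq_one_of_odd_of_mul_self ho e)

theorem DE.sylow {x t : G} {D : Subgroup G} (d : DE N x D t) (h2 : x * x ≠ 1)
    (hS : ∀ T : Subgroup G, IsPGroup 2 T → Nat.card T ≤ 2 * N) :
    IsSylowIn 2 (D ⊔ zpowers t) ⊤ :=
  haveI := Fact.mk Nat.prime_two
  IsSylowIn.of_maximal le_top d.two_E fun T a b _ =>
    (eq_of_le_of_card_ge b ((hS T a).trans (d.card_E h2).ge)).ge

namespace Hy

variable (h : Hy G N)
include h

theorem center_le_pCore : center G ≤ pCore 2 G := le_pCore h.two_center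

theorem pCore_le {x t : G} {D : Subgroup G} (d : DE N x D t) (ho : Odd (orderOf x)) (h1 : x ≠ 1) :
    pCore 2 G ≤ D := by
  have := Fact.mk Nat.prime_two
  have e := h.le_of_cent d.rl (not_center_of_odd ho h1 d.inv) d.card.ge
    (isPGroup_sup' (fun y _ => norm_pCore y) (pCore_isPGroup 2) d.two) le_sup_right
    (sup_le (fun q hq => mem_cent1.2 (mem_cent.1 (h.odd_mem_cent d.rl ho) q hq)) d.le)
  exact le_sup_left.trans e.le

theorem bs {w : G} (hw : w ∉ pCore 2 G) (h2 : w * w ∈ center G) :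
    ∃ x, Odd (orderOf x) ∧ x ≠ 1 ∧ w * x * w⁻¹ = x⁻¹ := by
  have := Fact.mk Nat.prime_two
  set f := QuotientGroup.mk' (center G) with hf
  have hk : ∀ {y}, f y = 1 ↔ y ∈ center G := fun {y} => QuotientGroup.eq_one_iff y
  obtain ⟨y, hp, hy, e⟩ := H5.exists_inverted_of_notMem_pCore (t := f w)
    (by rw [← map_pow, pow_two, hk.2 h2]) fun e => hw
      ((comap_pCore_quotient h.two_center).le e)
  obtain ⟨y, rfl⟩ := QuotientGroup.mk'_surjective (center G) y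
  obtain ⟨u, hu, v, -, e1, u2, ov⟩ := GD.exists_two_part y
  have h3 : f u = 1 := by
    obtain ⟨k, hk⟩ := two_iff.1 u2
    refine Two.eq_one (two_iff.2 ⟨k, by rw [← map_pow, hk, map_one]⟩)
      ((hp.odd_of_ne_two hy).of_dvd_nat (orderOf_dvd_of_mem_zpowers ?_))
    rw [← MonoidHom.map_zpowers]
    exact mem_map_of_mem _ hu
  have h4 : f y = f v := by rw [e1, map_mul, h3, one_mul]
  rw [← hf, h4] at hp e
  refine ⟨v, ov, fun a => by simp [a, Nat.not_prime_one] at hp, ?_⟩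
  have h5 : v * (w * v * w⁻¹) ∈ center G := hk.1 (by
    rw [map_mul, map_mul, map_mul, map_inv, e, mul_inv_cancel])
  have h6 : Commute v (w * v * w⁻¹) := mul_left_cancel (a := v) (by
    rw [cen_comm h5 v, mul_assoc v _ v])
  refine eq_inv_of_mul_eq_one_right (Two.eq_one (two_of_mem h.two_center h5)
    (ov.of_dvd_nat (orderOf_dvd_of_pow_eq_one ?_)))
  rw [h6.mul_pow, conj_pow, pow_orderOf_eq_one]
  group

variable (hS : ∀ T : Subgroup G, IsPGroup 2 T → Nat.card T ≤ 2 * N)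
include hS

theorem phi {r : G} (hr : Rl r) (hz : r ∉ center G) {y y' : G} (hy : y ∈ Co r)
    (hy' : y' ∈ Co r) (h1 : ph r y ≠ 1) : ph r y' = 1 ∨ ph r y' = ph r y := by
  have := Fact.mk Nat.prime_two
  obtain ⟨T, hT⟩ := IsSylowIn.exists_in (p := 2) (Co r)
  have e : Phi r (Co r) = Phi r T := ((hT.subgroupOf le_rfl).map (phHom r)).eq_of_le
    (h.two_center.to_le (Phi_le_center r _)) (map_mono (comap_mono hT.le)) le_rfl
  have h2 := card_Phi hT.le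
  have h3 := hS T hT.isPGroup
  have h4 : 0 < Nat.card ↥(T ⊓ 𝐂[r]) := Nat.card_pos
  rw [h2, ← h.card_inf_cent hr hz hT, mul_comm, ← e] at h3
  exact eq_of_card_le_two (Nat.le_of_mul_le_mul_right h3 h4) (ph_mem_Phi le_rfl hy)
    (ph_mem_Phi le_rfl hy') h1

variable (r3 : ∀ x e t c : G, Odd (orderOf x) → x ≠ 1 → Two e → e ∉ center G → e ∈ 𝐂[x] →
    t * x * t⁻¹ = x⁻¹ → t * e * t⁻¹ = e⁻¹ → c ∈ 𝐂[e] → c * x * c⁻¹ = x⁻¹ → False)
include r3

theorem s6 {x t : G} {D M : Subgroup G} (ho : Odd (orderOf x)) (h1 : x ≠ 1) (d : DE N x D t)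
    (hn : D ⊔ zpowers t ≤ 𝐍(M)) (hD : M ≤ D) (hM : M ≤ 𝐂[t]) {r : G} (hr : r ∈ M) (hl : Rl r) :
    r ∈ center G := by
  by_contra hz
  obtain ⟨r, hr', hz, hrr⟩ := exists_sq_mem (two_of_mem d.two (hD hr)) hz
  replace hl := hl.of_mem hr'
  replace hr := zpowers_le.2 hr hr'
  have key : ∀ e ∈ M, e ∉ center G → ∀ s ∈ D ⊔ zpowers t, s * e * s⁻¹ ≠ e⁻¹ := fun e a b s c k => by
    have h2 := mem_cent1_comm.1 (hM a)
    rcases d.mem_E.1 c with l | l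
    · exact r3 x e (s * t) t ho h1 (two_of_mem d.two (hD a)) b (d.le (hD a))
        (mul_inverts (d.le l) d.inv) (mul_inverts' h2 k) h2 d.inv
    · exact r3 x e s t ho h1 (two_of_mem d.two (hD a)) b (d.le (hD a)) (d.inv_of l) k h2 d.inv
  have hne : r * r ≠ 1 := fun e => key r hr hz 1 (one_mem _) (by
    rw [inv_eq_of_mul_eq_one_right e]; group)
  obtain ⟨y0, hy0⟩ := id hl
  have h2 : ∀ y ∈ D ⊔ zpowers t, y ∈ Co r → y ∈ 𝐂[r] := fun y a b => by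
    rcases h.phi hS hl hz (mem_Co_of_inv hrr hy0) b (by rwa [ph_of_inv hy0, inv_ne_one])
      with e | e
    · exact ph_eq_one.1 e
    · exact absurd (inv_of_ph (e.trans (ph_of_inv hy0))) (key r hr hz y a)
  obtain ⟨y, y1, y2, y3, -⟩ := grow d.two_E (T := (D ⊔ zpowers t) ⊓ 𝐂[r])
    (lt_of_le_of_ne inf_le_left fun e => by
      have h3 := h.le_N hl hz d.two_E (e.ge.trans inf_le_right)
      have h4 := d.card_E (sq_ne_of_odd ho h1)
      have := d.pos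
      omega)
  have h3 : y * r * y⁻¹ ∈ 𝐂[r] :=
    (conj_mem_of_mem_normalizer y2 ⟨mem_sup_left (hD hr), self_mem_cent1 r⟩).2
  refine key (ph r y) (mul_mem (inv_mem hr) (conj_mem_of_mem_normalizer (hn y1) hr))
    (fun e => y3 ⟨y1, h2 y y1 e⟩) 1 (one_mem _) ?_
  rw [one_mul, inv_one, mul_one, eq_inv_iff_mul_eq_one, ph]
  calc _ = r⁻¹ * (y * r * y⁻¹ * r⁻¹) * (y * r * y⁻¹) := by group
    _ = (r * r)⁻¹ * (y * (r * r) * y⁻¹) := by
      rw [mem_cent1.1 (inv_mem (mem_cent1_comm.1 h3)) |>.symm]; group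
    _ = 1 := by rw [cen_conj hrr, inv_mul_cancel]

theorem s0 (hn : ¬ Odd (pCore 2 G).index) {r : G} (hr : r ∈ pCore 2 G) (hl : Rl r) :
    r ∈ center G := by
  obtain ⟨x, t, ho, h1, h2, h3, e⟩ := h.exists_inv hn
  obtain ⟨D, d⟩ := h.exists_DE1 (not_center_of_odd ho h1 e) e h2
  exact h.s6 hS r3 ho h1 d (fun y _ => norm_pCore y) (h.pCore_le d ho h1)
    (fun q hq => mem_cent1.2 (mem_cent.1 h3 q hq)) hr hl

theorem s2 (setup : ∀ x e t : G, Odd (orderOf x) → x ≠ 1 → Two e → e ∉ center G → e ∈ 𝐂[x] →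
      t * x * t⁻¹ = x⁻¹ → t * e * t⁻¹ = e⁻¹ → Two t → ∃ D, DE N x D t ∧ DE N e D t ∧ e ∈ D)
    {x w e t : G} {D : Subgroup G} (ho : Odd (orderOf x)) (h1 : x ≠ 1) (d : DE N x D w)
    (he : Two e) (hc : e ∈ 𝐂[x]) (t1 : t * x * t⁻¹ = x⁻¹) (t2 : t * e * t⁻¹ = e⁻¹)
    (hz : e ∉ center G) :
    ∃ ζ ∈ D, ζ ∈ 𝐂(D) ∧ w * ζ * w⁻¹ = ζ⁻¹ ∧ ζ * ζ ∈ center G ∧ ζ * ζ ≠ 1 := by
  have := Fact.mk Nat.prime_two
  have hxx := sq_ne_of_odd ho h1
  have hcm : Commute e x := mem_cent1.1 hc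
  obtain ⟨s, s2, s1⟩ := Rl.exists_two (x := e * x) ⟨t, by
    rw [← _root_.conj_mul, t1, t2, ← mul_inv_rev, hcm.eq]⟩
  have hco : (orderOf e).Coprime (orderOf x) := by
    obtain ⟨k, hk⟩ := two_iff.1 he
    exact (Nat.Coprime.pow_left k (Nat.coprime_two_left.2 ho)).coprime_dvd_left
      (orderOf_dvd_of_pow_eq_one hk)
  obtain ⟨D', d1, d2, eD⟩ := setup x e s ho h1 he hz hc
    (inv_of_mem_zpowers s1 (mem_zpowers_mul_of_coprime' hcm hco))
    (inv_of_mem_zpowers s1 (mem_zpowers_mul_of_coprime hcm hco)) s2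
  obtain ⟨g, hg, h2⟩ := ((d.sylow hxx hS).mono d.E_le_Cs le_top).exists_conj_le d1.two_E d1.E_le_Cs
  have h3 : D'.map (MulAut.conj g).toMonoidHom = D := eq_of_le_of_card_ge (by
    rintro _ ⟨y, hy, rfl⟩
    exact d.inf_cent hxx (h2 (mem_map_of_mem _ (mem_sup_left hy)))
      (conj_mem_of_mem_normalizer (Cs_le_norm x hg) (d1.le hy)))
    (by rw [card_map_conj, d.card, d1.card])
  have h4 : g * e * g⁻¹ ∈ 𝐂(D) := by
    rw [← h3, centralizer_map_conj]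
    exact mem_map_of_mem _ (mem_cent.2 fun y hy => mem_cent1.1 (d2.le hy))
  have h5 : g * s * g⁻¹ * w⁻¹ ∈ D := (d.mem_E.1 (h2 (mem_map_of_mem _
    (mem_sup_right (mem_zpowers s))))).resolve_left fun a => d1.notMem hxx (by
      rw [← h3] at a
      simpa [mul_assoc] using mem_map_conj_iff.1 a)
  have h6 : w * (g * e * g⁻¹) * w⁻¹ = (g * e * g⁻¹)⁻¹ := by
    have h7 := mul_inverts (g := g * e * g⁻¹) (mem_cent1.2 (mem_cent.1 h4 _ (inv_mem h5)))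
      (a := g * s * g⁻¹) (by rw [_root_.conj_mul, conj_inv, _root_.conj_mul, d2.inv, conj_inv])
    rwa [show (g * s * g⁻¹ * w⁻¹)⁻¹ * (g * s * g⁻¹) = w by group] at h7
  obtain ⟨ζ, z1, z2, z3⟩ := exists_sq_mem (he.conj g) (fun a => hz (conj_mem_center.1 a))
  have z4 : ζ ∈ D := zpowers_le.2 (h3 ▸ mem_map_of_mem _ eD) z1
  have z5 := inv_of_mem_zpowers h6 z1
  refine ⟨ζ, z4, zpowers_le.2 h4 z1, z5, z3, fun a => r3 x ζ w w ho h1 (two_of_mem d.two z4) z2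
    (d.le z4) d.inv z5 (U4.mem_cent1_of_conj_eq ?_) d.inv⟩
  rw [z5, inv_eq_of_mul_eq_one_right a]

theorem c1 (setup : ∀ x e t : G, Odd (orderOf x) → x ≠ 1 → Two e → e ∉ center G → e ∈ 𝐂[x] →
      t * x * t⁻¹ = x⁻¹ → t * e * t⁻¹ = e⁻¹ → Two t → ∃ D, DE N x D t ∧ DE N e D t ∧ e ∈ D)
    (ns : ∀ (x w : G) (D : Subgroup G), Odd (orderOf x) → x ≠ 1 → DE N x D w → w * w ∈ center G →
      ∃ e t, Two e ∧ e ∈ 𝐂[x] ∧ t * x * t⁻¹ = x⁻¹ ∧ t * e * t⁻¹ = e⁻¹ ∧ e ∉ center G)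
    (hn : ¬ Odd (pCore 2 G).index) : C1 G N where
  hy := h
  hS := hS
  setup := setup
  r3 := r3
  phi := fun _ a b _ _ c _ d e => h.phi hS a b c d e
  s6 := fun _ _ _ _ a b c d e f _ g i => h.s6 hS r3 a b c d e f g i
  s0 := fun _ a b => h.s0 hS r3 hn a b
  s0' := fun y a => mem_cent.2 fun _ hq => mem_cent1.1 (le_cent_of_rl (pCore_isPGroup 2) a
    (norm_pCore y) (fun _ b c => mem_cent1.2 (cen_comm (h.s0 hS r3 hn b c) y).symm) hq)
  s2 := fun x w T a b c d e f g => by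
    obtain ⟨D, d1, d2⟩ := h.exists_DE (not_center_of_odd a b c) c e f g
    obtain ⟨e, t, e1, e2, e3, e4, e5⟩ := ns x w D a b d1 d
    obtain ⟨ζ, z⟩ := h.s2 hS r3 setup a b d1 e1 e2 e3 e4 e5
    exact ⟨D, ζ, d1, d2, z⟩
  bs := fun _ a b => h.bs a b

end Hy

theorem C1.start (H : C1 G N) (hn : ¬ Odd (pCore 2 G).index) :
    ∃ a ∈ 𝐂(pCore 2 G), Rl a ∧ a * a ∈ center G ∧ a * a ≠ 1 := by
  obtain ⟨g, g2, gr, -, gQ⟩ := H.hy.exists_real hn
  obtain ⟨w, w1, w2, w3⟩ := exists_sq_mem g2 fun a => gQ (H.hy.center_le_pCore a)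
  obtain ⟨x, ho, h1, e⟩ := H.bs w (fun a => w2 (H.s0 w a (gr.of_mem w1))) w3
  obtain ⟨D, ζ, d, -, -, z2, z3, z4⟩ := H.s2 x w _ ho h1 e w3 (g2.of_mem w1)
    (zpowers_le.2 (mem_Cs.2 (.inr e))) (mem_zpowers w)
  exact ⟨ζ, centralizer_le (H.hy.pCore_le d ho h1) z2, ⟨w, z3⟩, z4⟩

end CfsgLib.RC
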