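import Cfsg.Agent.Lib.RC.OneDefs
import Cfsg.Agent.Lib.RC.Dih
import Cfsg.Agent.Lib.PPC.Two
import Cfsg.Agent.Lib.Blk.ZStar

/-!
# Real classes with equal `2`-parts: the endgame of the case `a = 1`
-/

set_option autoImplicit false
set_option linter.unusedSectionVars false

namespace CfsgLib.RC

open Subgroup Cfsg CfsgLib.FT CfsgLib.FT.BGN CfsgLib.GW
open CfsgLib.FT.U4 (mem_cent1 mem_cent1' mem_cent mem_cent1_comm self_mem_cent1 cent1_conj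
  orderOf_conj cent_le_cent1)

universe u

variable {G : Type*} [Group G] [Finite G] {N : ℕ}

omit [Finite G] in
theorem center_le_pCore (h : IsPGroup 2 (center G)) : center G ≤ pCore 2 G := le_pCore h

namespace C1

variable (H : C1 G N)
include H

theorem sylow {x t : G} {D : Subgroup G} (ho : Odd (orderOf x)) (h1 : x ≠ 1) (d : DE N x D t) :
    IsSylowIn 2 (D ⊔ zpowers t) ⊤ := by
  have := Fact.mk Nat.prime_two
  obtain ⟨S, hS⟩ := IsSylowIn.exists_in (p := 2) (⊤ : Subgroup G)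
  exact hS.of_card_le d.two_E le_top ((H.hS S hS.isPGroup).trans
    (d.card_E fun e => h1 (eq_one_of_odd_of_mul_self ho e)).ge)

theorem Q_le {x t : G} {D : Subgroup G} (ho : Odd (orderOf x)) (h1 : x ≠ 1) (d : DE N x D t) :
    pCore 2 G ≤ D := fun q hq => by
  have := Fact.mk Nat.prime_two
  have h2 : q ∈ D ⊔ zpowers t := H1.pCoreOf_le_sylow (H.sylow ho h1 d) (H1.pCoreOf_top.ge hq)
  refine (d.mem_E.1 h2).resolve_right fun e => h1 (eq_one_of_odd_of_mul_self ho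
    (sq_of_inv_of_comm (d.inv_of e) (mem_cent.1 (H.s0' x ho) q hq)))

theorem Z_le : center G ≤ pCore 2 G := le_pCore H.hy.two_center

theorem cent_mul {S : Subgroup G} (hS : IsSylowIn 2 S ⊤) (g : G) :
    ∃ c ∈ 𝐂(pCore 2 G), ∃ s ∈ S, c * s = g := by
  have := Fact.mk Nat.prime_two
  have h1 : IsPGroup 2 (G ⧸ 𝐂(pCore 2 G)) := fun y => by
    obtain ⟨y, rfl⟩ := QuotientGroup.mk'_surjective _ y
    obtain ⟨u, -, v, -, rfl, hu, hv⟩ := GD.exists_two_part y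
    obtain ⟨k, hk⟩ := two_iff.1 hu
    refine ⟨k, ?_⟩
    rw [map_mul, show QuotientGroup.mk' _ v = 1 from (QuotientGroup.eq_one_iff v).2 (H.s0' v hv),
      mul_one, ← map_pow, hk, map_one]
  obtain ⟨k, hk⟩ := IsPGroup.iff_card.1 h1
  have h2 := hS.sup_eq_of_relIndex_eq_pow (N := 𝐂(pCore 2 G)) le_top (k := k)
    (by rw [relIndex_top_right]; exact hk)
  exact (mem_sup_iff_of_le_normalizer' le_normalizer_of_normal).1 (h2.ge (mem_top g))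

theorem od_quot : Od (⊤ : Subgroup (G ⧸ pCore 2 G)) = ⊥ := by
  set f := QuotientGroup.mk' (pCore 2 G) with hf
  have : (Od (⊤ : Subgroup (G ⧸ pCore 2 G))).Normal := normalizer_eq_top_iff.1
    (top_le_iff.1 (le_norm_Od ⊤))
  set M := (Od ⊤).comap f ⊓ 𝐂(pCore 2 G) with hM
  have h1 : Nilp2 M := by
    refine nilp2_of_hnpc (hnpc_two_of_real_central fun r h4 _ => ?_)
    refine mem_center_iff.2 fun y => Subtype.ext ?_
    have h2 : Two (f r) := two_iff.2 ⟨2, by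
      rw [← map_pow, show (r : G) ^ 2 ^ 2 = 1 from congrArg Subtype.val h4, map_one]⟩
    exact (mem_cent.1 y.2.2 r ((QuotientGroup.eq_one_iff _).1
      (h2.eq_one (odd_of_mem_Od r.2.1)))).symm
  refine eq_bot_iff.2 fun y hy => ?_
  obtain ⟨y, rfl⟩ := QuotientGroup.mk'_surjective _ y
  obtain ⟨u, -, v, hv, e, hu, ov⟩ := GD.exists_two_part y
  have h2 : v ∈ Od M := h1 v ⟨zpowers_le.2 (show y ∈ (Od ⊤).comap f from hy) hv, H.s0' v ov⟩ ov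
  have h3 := Od_le_Od (le_top : M ≤ ⊤) le_normalizer_of_normal h2
  rw [H.hy.od, mem_bot] at h3
  obtain ⟨k, hk⟩ := two_iff.1 hu
  refine (two_iff.2 ⟨k, ?_⟩ : Two (f y)).eq_one (odd_of_mem_Od hy)
  rw [← map_pow, e, h3, mul_one, hk, map_one]

end C1

/-- The configuration of the endgame. -/
structure Fr (N : ℕ) (x a ζ : G) (D : Subgroup G) : Prop where
  H : C1 G N
  odd : Odd (orderOf x)
  ne : x ≠ 1
  de : DE N x D a
  rl : Rl a
  aZ : a * a ∈ center G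
  a1 : a * a ≠ 1
  aQ : a ∈ 𝐂(pCore 2 G)
  mem : ζ ∈ D
  cent : ζ ∈ 𝐂(D)
  inv : a * ζ * a⁻¹ = ζ⁻¹
  zZ : ζ * ζ ∈ center G
  z1 : ζ * ζ ≠ 1

omit [Finite G] in
theorem not_center_of_rl {c : G} (h : Rl c) (h1 : c * c ≠ 1) : c ∉ center G := fun e => by
  obtain ⟨t, ht⟩ := h
  exact h1 (sq_of_inv_of_comm ht (cen_comm e t))

omit [Finite G] in
theorem four_of_rl {c : G} (h : Rl c) (h1 : c * c ∈ center G) : c * c * (c * c) = 1 := by
  obtain ⟨t, ht⟩ := h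
  exact sq_of_inv_of_comm (inv_of_mem_zpowers ht (mul_mem (mem_zpowers c) (mem_zpowers c)))
    (cen_comm h1 t)

/-- `δ⁻¹ δ^a`. -/
theorem ph_cases (H : C1 G N) {a y : G} (hr : Rl a) (h1 : a * a ∈ center G) (h2 : a * a ≠ 1)
    (hy : y ∈ Co a) : ph a y = 1 ∨ ph a y = a * a := by
  obtain ⟨t, ht⟩ := hr
  have e : ph a t = a * a := by
    rw [ph_of_inv ht, inv_eq_of_mul_eq_one_right (four_of_rl ⟨t, ht⟩ h1)]
  exact e ▸ H.phi a ⟨t, ht⟩ (not_center_of_rl ⟨t, ht⟩ h2) h1 t (mem_Co_of_inv h1 ht) y hy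
    (e ▸ h2)

namespace Fr

variable {x a ζ : G} {D : Subgroup G} (h : Fr N x a ζ D)
include h

theorem zz : a * a * (a * a) = 1 := four_of_rl h.rl h.aZ

theorem zinv : (a * a)⁻¹ = a * a := inv_eq_of_mul_eq_one_right h.zz

/-- If `a` centralizes `δ` modulo the centre. -/
theorem ph_a {δ : G} (h1 : ph δ a ∈ center G) : ph δ a = 1 ∨ ph δ a = a * a := by
  have h2 := ph_cases h.H h.rl h.aZ h.a1 (mem_Co_comm (mem_Co.2 h1))
  rw [ph_symm (mem_Co.2 h1), inv_eq_one, inv_eq_iff_eq_inv, h.zinv] at h2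
  exact h2

theorem center_of_sq {c : G} (hc : c ∈ D) (hi : a * c * a⁻¹ = c⁻¹) (h1 : c * c = 1) :
    c ∈ center G := by
  by_contra e
  refine h.H.r3 x c a a h.odd h.ne (two_of_mem h.de.two hc) e (h.de.le hc) h.de.inv hi ?_ h.de.inv
  rw [inv_eq_of_mul_eq_one_right h1] at hi
  exact U4.mem_cent1_of_conj_eq hi

theorem sq_eq {c : G} (hc : c ∈ D) (hi : a * c * a⁻¹ = c⁻¹) (h1 : c * c ∈ center G)
    (h2 : c ∉ center G) : c * c = a * a := by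
  rcases h.ph_a (δ := c) (mem_Co_of_inv h1 hi) with e | e <;> rw [ph_of_inv hi] at e
  · exact absurd (h.center_of_sq hc hi (inv_eq_one.1 e)) h2
  · rw [← h.zinv, ← e, inv_inv]

theorem zeta_nc : ζ ∉ center G := not_center_of_rl ⟨a, h.inv⟩ h.z1

theorem zeta_sq : ζ * ζ = a * a := h.sq_eq h.mem h.inv h.zZ h.zeta_nc

theorem mul_zeta {c : G} (hc : c ∈ D) (hi : a * c * a⁻¹ = c⁻¹) (h1 : c * c ∈ center G)
    (h2 : c ∉ center G) : c * ζ ∈ center G := by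
  have e := mem_cent.1 h.cent c hc
  refine h.center_of_sq (mul_mem hc h.mem) ?_ ?_
  · rw [show a * (c * ζ) * a⁻¹ = a * c * a⁻¹ * (a * ζ * a⁻¹) by group, hi, h.inv, e, mul_inv_rev]
  · rw [show c * ζ * (c * ζ) = c * (ζ * c) * ζ by group, ← e,
      show c * (c * ζ) * ζ = c * c * (ζ * ζ) by group, h.sq_eq hc hi h1 h2, h.zeta_sq, h.zz]

theorem sylow : IsSylowIn 2 (D ⊔ zpowers a) ⊤ := h.H.sylow h.odd h.ne h.de

theorem Q_le : pCore 2 G ≤ D := h.H.Q_le h.odd h.ne h.de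

theorem exists_conj {η : G} (h1 : η ∈ D) (hi : a * η * a⁻¹ = η⁻¹) (h2 : η ∉ center G) :
    ∃ g, g * η * g⁻¹ ∈ D ∧ g * η * g⁻¹ ∈ 𝐂(D) ∧ a * (g * η * g⁻¹) * a⁻¹ = (g * η * g⁻¹)⁻¹ := by
  have := Fact.mk Nat.prime_two
  obtain ⟨D', d1, d2, h3⟩ := h.H.setup x η a h.odd h.ne (two_of_mem h.de.two h1) h2 (h.de.le h1)
    h.de.inv hi h.de.two_t
  have le : ∀ {E : Subgroup G}, DE N x E a → E ⊔ zpowers a ≤ Cs x := fun d =>
    sup_le (d.le.trans (cent_le_Cs x)) (zpowers_le.2 (mem_Cs.2 (.inr d.inv)))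
  obtain ⟨g, hg, h4⟩ := (h.sylow.mono (le h.de) le_top).exists_conj_le d1.two_E (le d1)
  have xx : x * x ≠ 1 := fun e => h.ne (eq_one_of_odd_of_mul_self h.odd e)
  have h5 : g •ᶜ D' ≤ D := by
    rintro _ ⟨y, hy, rfl⟩
    exact (h.de.mem_E.1 (h4 (mem_map_of_mem _ (mem_sup_left hy)))).resolve_right fun e =>
      xx (sq_of_inv_of_comm (h.de.inv_of e)
        (mem_cent1.1 (conj_mem_of_mem_normalizer (Cs_le_norm x hg) (d1.le hy))))
  have h6 : g •ᶜ D' = D := eq_of_le_of_card_ge h5 (by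
    rw [card_map_of_injective (MulAut.conj g).injective, d1.card, h.de.card])
  have h7 : g * η * g⁻¹ ∈ 𝐂(D) := by
    rw [← h6, centralizer_map_conj]
    exact mem_map_of_mem _ (mem_cent.2 fun y hy => mem_cent1.1 (d2.le hy))
  refine ⟨g, h5 (mem_map_of_mem _ h3), h7, ?_⟩
  have h8 : g * a * g⁻¹ * a⁻¹ ∈ D :=
    (h.de.mem_E.1 (h4 (mem_map_of_mem _ (mem_sup_right (mem_zpowers a))))).resolve_left fun e => by
      rw [← h6] at e
      exact d1.notMem xx (U4.conj_mem_conj_iff.1 e)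
  have h9 := mem_cent.1 h7 _ h8
  calc a * (g * η * g⁻¹) * a⁻¹ = (g * a * g⁻¹ * a⁻¹)⁻¹ * (g * (a * η * a⁻¹) * g⁻¹) *
        (g * a * g⁻¹ * a⁻¹) := by group
    _ = (g * a * g⁻¹ * a⁻¹)⁻¹ * ((g * η * g⁻¹)⁻¹ * (g * a * g⁻¹ * a⁻¹)) := by rw [hi]; group
    _ = _ := by rw [← (show Commute _ _ from h9).inv_right.eq, inv_mul_cancel_left]

/-- Elements of `D` inverted by `a` are central in `D`. -/
theorem s4 {η : G} (h1 : η ∈ D) (hi : a * η * a⁻¹ = η⁻¹) : η ∈ 𝐂(D) := by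
  obtain ⟨k, hk⟩ : ∃ k, η ^ 2 ^ k ∈ center G :=
    (two_iff.1 (two_of_mem h.de.two h1)).imp fun k hk => hk ▸ one_mem _
  induction k generalizing η with
  | zero => exact center_le_centralizer _ (by simpa using hk)
  | succ k ih =>
    by_cases e : η ^ 2 ^ k ∈ center G
    · exact ih h1 hi e
    obtain ⟨g, h2, h3, h4⟩ := h.exists_conj h1 hi fun e' => e (pow_mem e' _)
    have e1 : (g * η * g⁻¹) ^ 2 ^ k ∉ center G := by rwa [conj_pow, conj_mem_center]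
    have e2 : (g * η * g⁻¹) ^ 2 ^ (k + 1) ∈ center G := by rwa [conj_pow, conj_mem_center]
    generalize g * η * g⁻¹ = θ at h2 h3 h4 e1 e2
    have hc : Commute η θ := mem_cent.1 h3 η h1
    rw [pow_succ, pow_mul, pow_two] at hk e2
    have h5 := h.mul_zeta (pow_mem h1 _) (inv_of_mem_zpowers hi (pow_mem (mem_zpowers η) _)) hk e
    have h6 := h.mul_zeta (pow_mem h2 _) (inv_of_mem_zpowers h4 (pow_mem (mem_zpowers θ) _)) e2 e1
    have h7 := ih (η := η * θ⁻¹) (mul_mem h1 (inv_mem h2)) (by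
      rw [show a * (η * θ⁻¹) * a⁻¹ = a * η * a⁻¹ * (a * θ * a⁻¹)⁻¹ by group, hi, h4,
        hc.inv_right.eq, mul_inv_rev]) (by
      rw [hc.inv_right.mul_pow, inv_pow]
      simpa using mul_mem h5 (inv_mem h6))
    simpa using mul_mem h7 h3

theorem eta_mem {δ : G} (h1 : δ ∈ D) : ph δ a ∈ D :=
  mul_mem (inv_mem h1) (conj_mem_of_mem_normalizer h.de.norm h1)

theorem eta_inv (δ : G) : a * ph δ a * a⁻¹ = (ph δ a)⁻¹ := by
  rw [ph, show a * (δ⁻¹ * (a * δ * a⁻¹)) * a⁻¹ = a * δ⁻¹ * a⁻¹ * (a * a * δ * (a * a)⁻¹) by group,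
    cen_comm h.aZ δ |>.symm]
  group

theorem eta_cent {δ : G} (h1 : δ ∈ D) : ph δ a ∈ 𝐂(D) := h.s4 (h.eta_mem h1) (h.eta_inv δ)

theorem eta_mul {δ ε : G} (h1 : δ ∈ D) (h2 : ε ∈ D) : ph (δ * ε) a = ph δ a * ph ε a := by
  calc _ = ε⁻¹ * ph δ a * (a * ε * a⁻¹) := by simp only [ph]; group
    _ = _ := by rw [mem_cent.1 (h.eta_cent h1) _ (inv_mem h2), ph, ph]; group

theorem eta_one {δ : G} : ph δ a = 1 ↔ δ ∈ 𝐂[a] := ph_eq_one.trans mem_cent1_comm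

theorem eta_cases {δ : G} (h1 : δ ∈ D) (h2 : δ * δ ∈ 𝐂[a]) : ph δ a = 1 ∨ ph δ a = a * a :=
  h.ph_a (h.center_of_sq (h.eta_mem h1) (h.eta_inv δ) (by rw [← h.eta_mul h1 h1, h.eta_one.2 h2]))

theorem conj_C {δ c : G} (h1 : δ ∈ D) (hc : c ∈ D ⊓ 𝐂[a]) : δ * c * δ⁻¹ ∈ D ⊓ 𝐂[a] := by
  refine mem_inf.2 ⟨mul_mem (mul_mem h1 hc.1) (inv_mem h1), h.eta_one.1 ?_⟩
  rw [h.eta_mul (mul_mem h1 hc.1) (inv_mem h1), h.eta_mul h1 hc.1, h.eta_one.2 hc.2, mul_one,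
    ← h.eta_mul h1 (inv_mem h1), mul_inv_cancel, h.eta_one.2 (one_mem _)]

theorem norm_C : D ⊔ zpowers a ≤ 𝐍(D ⊓ 𝐂[a]) :=
  sup_le (fun _ h1 => mem_normalizer_of_conj_mem fun _ hc => h.conj_C h1 hc)
    (zpowers_le.2 (mem_normalizer_of_conj_mem fun c hc => by
      rw [← mem_cent1.1 hc.2, mul_inv_cancel_right]; exact hc))

theorem s6 {r : G} (h1 : r ∈ D ⊓ 𝐂[a]) (h2 : Rl r) : r ∈ center G :=
  h.H.s6 x a D _ h.odd h.ne h.de h.norm_C inf_le_left inf_le_right r h1 h2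

theorem Q_le_C : pCore 2 G ≤ D ⊓ 𝐂[a] :=
  le_inf h.Q_le fun q hq => mem_cent1.2 (mem_cent.1 h.aQ q hq)

theorem s5 {c : G} (h1 : c ∈ D ⊔ zpowers a) (h2 : Rl c) (h3 : c * c = a * a) :
    c ∈ 𝐂(D ⊓ 𝐂[a]) := by
  rcases h.de.mem_E.1 h1 with e | e
  · rcases h.eta_cases e (h3 ▸ mul_mem (self_mem_cent1 a) (self_mem_cent1 a)) with e' | e'
    · exact center_le_centralizer _ (h.s6 ⟨e, h.eta_one.1 e'⟩ h2)
    · refine centralizer_le inf_le_left (h.s4 e (inv_of_ph ?_))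
      rw [e', h3, h.zinv]
  · have h4 := h.s4 e (by
      calc a * (c * a⁻¹) * a⁻¹ = a * c⁻¹ * (c * c) * (a * a)⁻¹ := by group
        _ = _ := by rw [h3]; group)
    have h5 : a ∈ 𝐂(D ⊓ 𝐂[a]) := mem_cent.2 fun y hy => mem_cent1.1 hy.2
    simpa using mul_mem (centralizer_le inf_le_left h4) h5

theorem conj_z (g : G) {c : G} (h3 : c * c = a * a) : g * c * g⁻¹ * (g * c * g⁻¹) = a * a := by
  rw [← cen_conj h.aZ g, ← h3]; group

theorem sylow_map : IsSylowIn 2 ((D ⊔ zpowers a).map (QuotientGroup.mk' (pCore 2 G))) ⊤ := by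
  have := h.sylow.map (QuotientGroup.mk' (pCore 2 G))
  rwa [map_top_of_surjective _ (QuotientGroup.mk'_surjective _)] at this

theorem zeta_cent {s : G} (hs : s ∈ D ⊔ zpowers a) : s * ζ * s⁻¹ * ζ⁻¹ ∈ center G := by
  rcases h.de.mem_E.1 hs with e | e
  · rw [mem_cent.1 h.cent s e, mul_inv_cancel_right, mul_inv_cancel]; exact one_mem _
  · have := mul_inverts (mem_cent1.2 (mem_cent.1 h.cent _ e)) h.inv
    rw [inv_mul_cancel_right] at this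
    rw [this, ← mul_inv_rev]
    exact inv_mem h.zZ

theorem comm_iff {b c : G} : QuotientGroup.mk' (pCore 2 G) b ∈ 𝐂[QuotientGroup.mk' (pCore 2 G) c] ↔
    b * c * b⁻¹ * c⁻¹ ∈ pCore 2 G := by
  rw [mem_cent1, ← QuotientGroup.eq_one_iff, ← QuotientGroup.mk'_apply]
  simp only [map_mul, map_inv, mul_inv_eq_iff_eq_mul, one_mul]

theorem key {c b g : G} (hc : c ∈ D ⊓ 𝐂[a])
    (h1 : ∀ s ∈ D ⊔ zpowers a, s * c * s⁻¹ * c⁻¹ ∈ pCore 2 G) (h2 : Rl b) (h3 : b * b = a * a)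
    (h4 : b * (g * c * g⁻¹) * b⁻¹ * (g * c * g⁻¹)⁻¹ ∈ pCore 2 G) : b ∈ 𝐂[g * c * g⁻¹] := by
  have := Fact.mk Nat.prime_two
  set K := (𝐂[QuotientGroup.mk' (pCore 2 G) c]).comap (QuotientGroup.mk' (pCore 2 G)) with hK
  have nQ := (inferInstance : (pCore 2 G).Normal).conj_mem
  have h5 : g⁻¹ * b * g⁻¹⁻¹ ∈ K := h.comm_iff.2 (by
    convert nQ _ h4 g⁻¹ using 1; group)
  obtain ⟨n, hn, h6⟩ := (h.sylow.mono (fun s hs => (h.comm_iff.2 (h1 s hs) : s ∈ K))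
    le_top).exists_conj_le (h.H.hy.two_of_sq_center (h.conj_z g⁻¹ h3 ▸ h.aZ)) (zpowers_le.2 h5)
  have h7 := h.s5 (h6 (mem_map_of_mem _ (mem_zpowers _))) ((h2.conj _).conj n)
    (h.conj_z n (h.conj_z g⁻¹ h3))
  have h8 : n * c * n⁻¹ ∈ D ⊓ 𝐂[a] := by
    simpa using mul_mem (h.Q_le_C (h.comm_iff.1 hn)) hc
  have h9 : n * c * n⁻¹ * (n * (g⁻¹ * b * g⁻¹⁻¹) * n⁻¹) =
    n * (g⁻¹ * b * g⁻¹⁻¹) * n⁻¹ * (n * c * n⁻¹) := mem_cent.1 h7 _ h8
  refine mem_cent1.2 ?_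
  calc _ = g * n⁻¹ * (n * (g⁻¹ * b * g⁻¹⁻¹) * n⁻¹ * (n * c * n⁻¹)) * n * g⁻¹ := by group
    _ = _ := by rw [← h9]; group

theorem mem_D {s : G} (hs : s ∈ D ⊔ zpowers a) (h1 : ζ ∈ 𝐂[s]) : s ∈ D :=
  (h.de.mem_E.1 hs).resolve_right fun e => by
    have := mul_inverts (mem_cent1.2 (mem_cent.1 h.cent _ e)) h.inv
    rw [inv_mul_cancel_right] at this
    exact h.z1 (sq_of_inv_of_comm this (mem_cent1.1 h1).symm)

theorem s8 : D ⊓ 𝐂[a] ≤ pCore 2 G := by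
  by_contra hn
  have := Fact.mk Nat.prime_two
  set f := QuotientGroup.mk' (pCore 2 G) with hf
  have fq : ∀ {y : G}, f y = 1 ↔ y ∈ pCore 2 G := QuotientGroup.eq_one_iff _
  have nQ := (inferInstance : (pCore 2 G).Normal).conj_mem
  have hS := h.sylow_map
  obtain ⟨_, ⟨c, hc, rfl⟩, ov, h1⟩ := GD.exists_inv_cent (K := (D ⊓ 𝐂[a]).map f) hS.isPGroup
    (H1.map_normalizer_le' h.norm_C f) fun ho => hn fun y hy => fq.1
      ((two_of_mem ((h.de.two.to_le inf_le_left).map f) (mem_map_of_mem f hy)).eq_one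
        (odd_orderOf_of_mem ho (mem_map_of_mem f hy)))
  have h2 : ∀ s ∈ D ⊔ zpowers a, s * c * s⁻¹ * c⁻¹ ∈ pCore 2 G := fun s hs =>
    h.comm_iff.1 (mem_cent1.2 (mem_cent.1 h1 _ (mem_map_of_mem f hs)))
  have cc : c * c ∈ pCore 2 G := fq.1 (by
    rw [map_mul, ← pow_two]; exact orderOf_dvd_iff_pow_eq_one.1 ov.dvd)
  have iso : ∀ g, g * c * g⁻¹ ∈ D ⊔ zpowers a → f (g * c * g⁻¹) = f c := fun g hg => by
    have h3 : g * c * g⁻¹ ∈ D := h.mem_D hg (h.key hc h2 ⟨a, h.inv⟩ h.zeta_sq (by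
      convert inv_mem (h.H.Z_le (h.zeta_cent hg)) using 1; group))
    have h4 : g * c * g⁻¹ * (g * c * g⁻¹) ∈ pCore 2 G := by
      convert nQ _ cc g using 1; group
    have h5 : ph (g * c * g⁻¹) a ∈ center G := by
      rcases h.eta_cases h3 (h.Q_le_C h4).2 with e | e <;> rw [e]
      exacts [one_mem _, h.aZ]
    have h6 : g * c * g⁻¹ ∈ D ⊓ 𝐂[a] := ⟨h3, mem_cent1_comm.1 (h.key hc h2 h.rl rfl (by
      rw [conj_eq_ph, cen_comm h5, mul_inv_cancel_right]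
      exact h.H.Z_le h5))⟩
    obtain ⟨k, hk, s, hs, rfl⟩ := h.H.cent_mul h.sylow g
    have h7 : s * c * s⁻¹ * (s * c * s⁻¹) = k * s * c * (k * s)⁻¹ * (k * s * c * (k * s)⁻¹) := by
      calc _ = s * (c * c) * s⁻¹ * k * k⁻¹ := by group
        _ = _ := by rw [mem_cent.1 hk _ (nQ _ cc s)]; group
    have h8 := h.s6 (r := s * c * s⁻¹ * (k * s * c * (k * s)⁻¹)⁻¹)
      (mul_mem (conj_mem_of_mem_normalizer (h.norm_C hs) hc) (inv_mem h6)) ⟨s * c * s⁻¹, by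
        generalize s * c * s⁻¹ = p at h7 ⊢
        generalize k * s * c * (k * s)⁻¹ = q at h7 ⊢
        rw [← mul_assoc, h7]; group⟩
    have h9 := fq.2 (mul_mem (inv_mem (h.H.Z_le h8)) (h2 s hs))
    rw [show (s * c * s⁻¹ * (k * s * c * (k * s)⁻¹)⁻¹)⁻¹ * (s * c * s⁻¹ * c⁻¹) =
      k * s * c * (k * s)⁻¹ * c⁻¹ by group, map_mul, map_inv, mul_inv_eq_one] at h9
    exact h9
  have hi : IsIsolated (f c) := fun y hy => by
    have hy2 : Two (y * f c * y⁻¹) := (two_iff.2 ⟨1, orderOf_dvd_iff_pow_eq_one.1 ov.dvd⟩ :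
      Two (f c)).conj y
    obtain ⟨n, hn, h3⟩ := (hS.mono (fun s hs => mem_cent1.2 (mem_cent.1 h1 s hs)) le_top :
      IsSylowIn 2 _ 𝐂[f c]).exists_conj_le hy2 (zpowers_le.2 (mem_cent1.2 hy.eq.symm))
    obtain ⟨g, hg⟩ := QuotientGroup.mk'_surjective _ (n * y)
    have h4 : f (g * c * g⁻¹) = n * (y * f c * y⁻¹) * n⁻¹ := by
      rw [map_mul, map_mul, map_inv, hg]; group
    have h5 : g * c * g⁻¹ ∈ ((D ⊔ zpowers a).map f).comap f := by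
      rw [mem_comap, h4]; exact h3 (mem_map_of_mem _ (mem_zpowers _))
    rw [comap_map_eq, QuotientGroup.ker_mk', sup_eq_left.2 (h.Q_le.trans le_sup_left)] at h5
    have h6 := iso g h5
    rw [h4] at h6
    calc y * f c * y⁻¹ = n⁻¹ * (n * (y * f c * y⁻¹) * n⁻¹) * n := by group
      _ = f c := by rw [h6, mul_assoc, ← mem_cent1.1 hn, inv_mul_cancel_left]
  have hz : f c ∈ center _ := mem_center_iff.2 fun y => by
    have h3 := Blk.glauberman_zstar _ _ ov hi y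
    have h4 : pPrimeCore 2 (G ⧸ pCore 2 G) ≤ Od ⊤ := le_Od le_top le_normalizer_of_normal
      (Nat.coprime_two_right.1 (pPrimeCore_coprime 2))
    rw [h.H.od_quot] at h4
    exact mul_inv_eq_iff_eq_mul.1 (mul_inv_eq_one.1 (h4 h3))
  have h3 : zpowers (f c) ≤ pCore 2 _ := by
    have : (zpowers (f c)).Normal := ⟨fun y hy g => by rwa [cen_conj (zpowers_le.2 hz hy)]⟩
    exact le_pCore (IsPGroup.of_card (n := 1) (by rw [Nat.card_zpowers, ov, pow_one]))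
  rw [pCore_quotient_pCore, zpowers_le, mem_bot] at h3
  rw [h3, orderOf_one] at ov
  omega

theorem cyc : ∃ δ ∈ D, ∀ ε ∈ D, ∃ n : ℤ, ε * (δ ^ n)⁻¹ ∈ D ⊓ 𝐂[a] := by
  let η : D →* G := MonoidHom.mk' (fun δ => ph δ a) fun δ ε => h.eta_mul δ.2 ε.2
  have h1 : ∀ y ∈ η.range, y ∈ D ∧ y ∈ 𝐂(D) := by
    rintro _ ⟨δ, rfl⟩
    exact ⟨h.eta_mem δ.2, h.eta_cent δ.2⟩
  have h2 : ∀ y ∈ η.range, y ^ 2 = 1 → y = 1 ∨ y = a * a := by
    rintro _ ⟨δ, rfl⟩ hy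
    exact h.ph_a (δ := δ) (h.center_of_sq (h.eta_mem δ.2) (h.eta_inv δ) (pow_two (η δ) ▸ hy))
  have hc : IsCyclic η.range := by
    by_contra hn
    have := Fact.mk Nat.prime_two
    obtain ⟨p, hp, q, hq, op, e1, e2⟩ := PGrp.exists_orderOf_eq_prime_pair
      (h.de.two.to_le fun y hy => (h1 y hy).1) (le_centralizer_iff_isMulCommutative.1
        fun y hy => centralizer_le (fun y hy => (h1 y hy).1) (h1 y hy).2) hn
    rcases h2 p hp (orderOf_dvd_iff_pow_eq_one.1 op.dvd) with e | e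
    · rw [e, orderOf_one] at op; omega
    · rcases h2 q hq e1 with e' | e'
      · exact e2 (e' ▸ one_mem _)
      · exact e2 (e' ▸ e ▸ mem_zpowers _)
  obtain ⟨⟨_, δ, rfl⟩, hδ⟩ := hc.exists_generator
  refine ⟨δ, δ.2, fun ε hε => ?_⟩
  obtain ⟨n, hn⟩ := hδ ⟨η ⟨ε, hε⟩, _, rfl⟩
  refine ⟨n, mem_inf.2 ⟨mul_mem hε (inv_mem (zpow_mem δ.2 n)), h.eta_one.1 ?_⟩⟩
  have : η δ ^ n = η ⟨ε, hε⟩ := congrArg Subtype.val hn
  change η (⟨ε, hε⟩ * (δ ^ n)⁻¹) = 1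
  rw [map_mul, map_inv, map_zpow, this, mul_inv_cancel]

theorem dih : GD.Dih (G ⧸ pCore 2 G) := by
  obtain ⟨δ, h1, h2⟩ := h.cyc
  set f := QuotientGroup.mk' (pCore 2 G) with hf
  have fq : ∀ {y : G}, f y = 1 ↔ y ∈ pCore 2 G := QuotientGroup.eq_one_iff _
  have h3 : ∀ ε ∈ D, f ε ∈ zpowers (f δ) := fun ε hε => by
    obtain ⟨n, hn⟩ := h2 ε hε
    have := fq.2 (h.s8 hn)
    rw [map_mul, map_inv, map_zpow, mul_inv_eq_one] at this
    exact ⟨n, this.symm⟩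
  refine PPC.dih_frame h.sylow_map (x := f δ) (y := f a) ?_
    (by rw [← map_mul]; exact fq.2 (h.H.Z_le h.aZ)) ?_
  · rintro _ ⟨s, hs, rfl⟩
    exact (h.de.mem_E.1 hs).imp (h3 s) fun e => by
      have := h3 _ e
      rwa [map_mul, map_inv] at this
  · have h4 := conj_mem_of_mem_normalizer h.de.norm h1
    have h5 : δ * (a * δ * a⁻¹) ∈ D ⊓ 𝐂[a] := mem_inf.2 ⟨mul_mem h1 h4, h.eta_one.1 (by
      rw [h.eta_mul h1 h4, ph_conj, inv_mul_cancel, one_mul, h.eta_inv, mul_inv_cancel])⟩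
    have := fq.2 (h.s8 h5)
    simp only [map_mul, map_inv] at this
    exact eq_inv_of_mul_eq_one_right this

end Fr

theorem C1.two_central (H : C1 G N) {x w ζ : G} {D : Subgroup G} (ho : Odd (orderOf x))
    (h1 : x ≠ 1) (d : DE N x D w) (h2 : ζ ∈ 𝐂(D)) (h3 : w * ζ * w⁻¹ = ζ⁻¹)
    (h4 : ζ * ζ ∈ center G) (h5 : ζ * ζ ≠ 1) :
    orderOf (QuotientGroup.mk' (pCore 2 G) ζ) = 2 ∧
      ∃ S, IsSylowIn 2 S ⊤ ∧ S ≤ 𝐂[QuotientGroup.mk' (pCore 2 G) ζ] := by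
  have := Fact.mk Nat.prime_two
  have e : QuotientGroup.mk' (pCore 2 G) ζ * QuotientGroup.mk' (pCore 2 G) ζ = 1 :=
    (QuotientGroup.eq_one_iff _).2 (H.Z_le h4)
  refine ⟨orderOf_eq_prime (by rw [pow_two, e]) fun e' => not_center_of_rl ⟨w, h3⟩ h5
    (H.s0 ζ ((QuotientGroup.eq_one_iff _).1 e') ⟨w, h3⟩), _, by
      have := (H.sylow ho h1 d).map (QuotientGroup.mk' (pCore 2 G))
      rwa [map_top_of_surjective _ (QuotientGroup.mk'_surjective _)] at this, ?_⟩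
  rw [Subgroup.map_sup, MonoidHom.map_zpowers]
  refine sup_le ?_ (zpowers_le.2 (U4.mem_cent1_of_conj_eq ?_))
  · rintro _ ⟨y, hy, rfl⟩
    exact mem_cent1.2 (by rw [← map_mul, mem_cent.1 h2 y hy, map_mul])
  · rw [← map_inv, ← map_mul, ← map_mul, h3, map_inv, inv_eq_of_mul_eq_one_right e]

theorem C1.final {G : Type u} [Group G] [Finite G] (H : C1 G N) {a : G}
    (h1 : a ∈ 𝐂(pCore 2 G)) (h2 : Rl a) (h3 : a * a ∈ center G) (h4 : a * a ≠ 1) : False := by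
  obtain ⟨x, ho, x1, hx⟩ := H.bs a (fun e => not_center_of_rl h2 h4 (H.s0 a e h2)) h3
  obtain ⟨D, ζ, d, -, z1, z2, z3, z4, z5⟩ := H.s2 x a (zpowers a) ho x1 hx h3
    (H.hy.two_of_sq_center h3) (zpowers_le.2 (mem_Cs.2 (.inr hx))) (mem_zpowers a)
  have h : Fr N x a ζ D := ⟨H, ho, x1, d, h2, h3, h4, h1, z1, z2, z3, z4, z5⟩
  set f := QuotientGroup.mk' (pCore 2 G) with hf
  obtain ⟨ot, S, hS, hS'⟩ := H.two_central ho x1 d z2 z3 z4 z5
  refine dih_end' h.dih H.od_quot (pCore_quotient_pCore 2) ot hS hS' fun b hb hk => ?_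
  obtain ⟨g, rfl⟩ := isConj_iff.1 hb
  obtain ⟨g, rfl⟩ := QuotientGroup.mk'_surjective _ g
  have e : ζ * ζ = g * ζ * g⁻¹ * (g * ζ * g⁻¹) := by rw [← cen_conj z4 g]; group
  have i1 := inv_pair e z4
  have i2 := inv_pair' e z4
  have fb : f g * f ζ * (f g)⁻¹ = f (g * ζ * g⁻¹) := by simp only [map_mul, map_inv]
  rw [fb] at hk ⊢
  generalize g * ζ * g⁻¹ = ξ at e i1 i2 hk
  have ξ2 : (f ξ)⁻¹ = f ξ := inv_eq_of_mul_eq_one_right (by
    rw [← map_mul, ← e]; exact (QuotientGroup.eq_one_iff _).2 (H.Z_le z4))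
  obtain ⟨v, hv, y, hy, e0, v2, oy⟩ := GD.exists_two_part (ζ * ξ⁻¹)
  have y1 : y ≠ 1 := fun e' => by
    obtain ⟨k, hk'⟩ := two_iff.1 v2
    refine hk k ?_
    rw [← ξ2, ← map_inv, ← map_mul, e0, e', mul_one, ← map_pow, hk', map_one]
  have vy : v ∈ 𝐂[y] := by
    obtain ⟨m, rfl⟩ := hv
    obtain ⟨n, rfl⟩ := hy
    exact mem_cent1.2 (zpow_mul_comm _ _ _)
  have iv := inv_of_mem_zpowers i1 hv
  obtain ⟨E, θ, d', t0, -, t2, t3, t4, t5⟩ := H.s2 y ζ (zpowers v ⊔ zpowers ζ) oy y1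
    (inv_of_mem_zpowers i1 hy) z4 (two_ext v2 (mem_normalizer_of_conj_mem fun w hw => by
      rw [inv_of_mem_zpowers iv hw]; exact inv_mem hw) (H.hy.two_of_sq_center z4))
    (sup_le (zpowers_le.2 (cent_le_Cs y vy))
      (zpowers_le.2 (mem_Cs.2 (.inr (inv_of_mem_zpowers i1 hy))))) (mem_sup_right (mem_zpowers ζ))
  obtain ⟨ou, hu⟩ := H.two_central oy y1 d' t2 t3 t4 t5
  have θ2 : (f θ)⁻¹ = f θ := inv_eq_of_mul_eq_one_right (by
    rw [← map_mul]; exact (QuotientGroup.eq_one_iff _).2 (H.Z_le t4))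
  have c1 : ∀ w, w * θ * w⁻¹ = θ⁻¹ → f θ * f w = f w * f θ := fun w hw => by
    have := congrArg f hw
    simp only [map_mul, map_inv, θ2] at this
    exact (mul_inv_eq_iff_eq_mul.1 this).symm
  have t1 : θ ∈ E := d'.mem_of_rl H.hy ⟨ζ, t3⟩ (not_center_of_rl ⟨ζ, t3⟩ t5)
    (H.hy.two_of_sq_center t4) t2
  have c2 : ζ * ξ⁻¹ ∈ 𝐂[θ] := e0 ▸ mul_mem (mem_cent1.2 (mem_cent.1 t2 v
    (t0 ⟨mem_sup_left (mem_zpowers v), vy⟩))) (mem_cent1_comm.1 (d'.le t1))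
  refine ⟨f θ, ou, hu, c1 ζ t3, c1 ξ ?_⟩
  have := mul_inverts (inv_mem c2) t3
  rwa [show (ζ * ξ⁻¹)⁻¹ * ζ = ξ by group] at this

end CfsgLib.RC
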